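import Cfsg.Agent.H259.SK.Out
import Cfsg.Agent.H282.SK.Tools
import Cfsg.Agent.UGT.U2.FOne.PSUSemi
import Cfsg.Agent.H199.PslGraphField

/-!
# S3010, `PSU_n(q)`, `q` even: the elements of `V` as linear and semilinear involutions (helper259)
-/

set_option autoImplicit false
set_option linter.unusedSectionVars false
set_option linter.unusedVariables false
set_option linter.unusedSimpArgs false

universe u

namespace Cfsg.Agent.H259.SK

open Matrix Cfsg Cfsg.Agent.H282.SK
open Cfsg.Agent.LieClassical.HermBasic Cfsg.Agent.LieClassical.HermSiegel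
open Cfsg.Agent.ClassicalGeometry.PSUAutCount (gm semiConj toAut gm_mul gm_one gm_mul_inv gm_inv_mul eq_of_toAut_eq
  herm_gm act_semiConj herm_semi gm_mulVec_inv gm_inv_mulVec gm_inj toAut_pr)
open Cfsg.Agent.ClassicalGeometry.UnitAutBasic (pr pr_surjective exists_scalar_of_pr_eq pr_eq_of_scalar)
open Cfsg.Agent.Schreier.PSU (mapGU gm_mapGU)
open Cfsg.Agent.UGT.U2.FOne.PSUSemi (toAut_mul S_add S_smul S_herm S_S S_def)

section Frame

variable {F : Type*} [Field F] [Fintype F] {q n : ℕ}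

/-- a semilinear representative of an element `w` of order two -/
structure OutRep (hF : Fintype.card F = q ^ 2) {G : Type*} [Group G] (κ : SU n F q →* G) (w : G)
    (S : (Fin n → F) → (Fin n → F)) : Prop where
  semi : Semi q (conj hF) S
  sq : ∀ u, S (S u) = u
  ex : ∀ y : SU n F q, ∃ y' : SU n F q, ∀ u, S (act y u) = act y' (S u)
  conj : ∀ y y' : SU n F q, (∀ u, S (act y u) = act y' (S u)) → w * κ y * w⁻¹ = κ y'

/-- `w` is the image of a linear involution (or `w = 1`) -/
def LinRep {G : Type*} [Group G] (κ : SU n F q →* G) (w : G) : Prop := ∃ C : SU n F q, C * C = 1 ∧ κ C = w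

/-- the frame: `κ : SU n F q → G` and representatives of the elements of `V` -/
structure Fr (hF : Fintype.card F = q ^ 2) {G : Type*} [Group G] (V : Subgroup G) (κ : SU n F q →* G) : Prop where
  ker : ∀ y y' : SU n F q, κ y = κ y' → ∃ c : F, c * c ^ q = 1 ∧ ∀ u, act y' u = c • act y u
  rep : ∀ w ∈ V, ¬ LinRep κ w → ∃ S, OutRep hF κ w S
  coset : ∀ w ∈ V, ∀ w' ∈ V, ¬ LinRep κ w → ¬ LinRep κ w' → LinRep κ (w * w')

/-- an element of `GU` whose square is a scalar is a scalar times an involution of `SU` -/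
theorem exists_lin (hF : Fintype.card F = q ^ 2) (hq : Even q) {A : GU n F q} {c : F} (hc : c * c ^ q = 1)
    (hA : gm A * gm A = c • (1 : Matrix (Fin n) (Fin n) F)) :
    ∃ (C : SU n F q) (d : F), C * C = 1 ∧ d ≠ 0 ∧ gm A = d • mat C := by
  have h2 : (2 : F) = 0 := H277.UnfPsuEven.two_zero hF hq
  obtain ⟨k, hk⟩ := hq
  have hc0 : c ≠ 0 := by
    rintro rfl
    rw [zero_mul] at hc
    exact zero_ne_one hc
  set d : F := c ^ (k + 1) with hd
  have hdd : d * d = c := by
    calc d * d = c ^ (k + 1 + (k + 1)) := by rw [hd, pow_add c (k + 1) (k + 1)]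
      _ = c * (c * c ^ q) := by rw [hk]; ring
      _ = c := by rw [hc, mul_one]
  have hdn : d * d ^ q = 1 := by
    calc d * d ^ q = (c * c ^ q) ^ (k + 1) := by rw [hd, mul_pow, ← pow_mul, ← pow_mul, mul_comm (k + 1) q]
      _ = 1 := by rw [hc, one_pow]
  have hd0 : d ≠ 0 := pow_ne_zero _ hc0
  set M : Matrix (Fin n) (Fin n) F := d⁻¹ • gm A with hM
  have hMM : M * M = 1 := by
    rw [hM, Matrix.smul_mul, Matrix.mul_smul, hA, smul_smul, smul_smul]
    have : d⁻¹ * d⁻¹ * c = 1 := by rw [← hdd]; field_simp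
    rw [this, one_smul]
  have hdet : M.det = 1 := by
    have h3 := congrArg Matrix.det hMM
    rw [Matrix.det_mul, Matrix.det_one] at h3
    exact eq_one_of_sq h2 h3
  have hdi : d⁻¹ * d⁻¹ ^ q = 1 := by
    rw [inv_pow, ← mul_inv, hdn, inv_one]
  have hiso : ∀ u v, hermForm n F q (M *ᵥ u) (M *ᵥ v) = hermForm n F q u v := by
    intro u v
    rw [hM, Matrix.smul_mulVec, Matrix.smul_mulVec, herm_smul_left, herm_smul_right, herm_gm, ← mul_assoc, hdi,
      one_mul]
  refine ⟨mkSU M hdet hiso, d, ?_, hd0, ?_⟩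
  · apply mat_injective
    rw [mat_mul, mat_mkSU, hMM, mat_one]
  · rw [mat_mkSU, hM, smul_smul, mul_inv_cancel₀ hd0, one_smul]

theorem exists_frame (hF : Fintype.card F = q ^ 2) (hq : Even q) (hn : 3 ≤ n) (h32 : ¬ (n = 3 ∧ q = 2)) {G : Type u}
    [Group G] [Finite G] {V K : Subgroup G} (h : Cx V K) (e : K ≃* PSU n F q) :
    ∃ κ : SU n F q →* G, Fr hF V κ := by
  have h2 : (2 : F) = 0 := H277.UnfPsuEven.two_zero hF hq
  obtain ⟨φ, hinj, hφ, hφ2⟩ := h.exists_toAut e
  let κ : SU n F q →* G := K.subtype.comp (e.symm.toMonoidHom.comp (pr n F q))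
  have hκ : ∀ y, κ y = (e.symm (pr n F q y) : K) := fun y => rfl
  -- conjugation
  have key : ∀ (w : G) (A : GU n F q) (ρ : F ≃+* F), φ w = toAut A ρ → ∀ y y' : SU n F q,
      (∀ u : Fin n → F, (gm A *ᵥ fun i => ρ (act y u i)) = act y' (gm A *ᵥ fun i => ρ (u i))) →
      w * κ y * w⁻¹ = κ y' := by
    intro w A ρ hw y y' hy
    have h1 : y' = semiConj A ρ y := by
      apply ext_act
      intro v
      have hv : v = gm A *ᵥ fun i => ρ ((fun j => ρ.symm ((gm A⁻¹ *ᵥ v) j)) i) := by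
        have : (fun i => ρ ((fun j => ρ.symm ((gm A⁻¹ *ᵥ v) j)) i)) = gm A⁻¹ *ᵥ v := by
          funext i
          simp
        rw [this, gm_mulVec_inv]
      rw [hv, ← hy, act_semiConj]
    obtain ⟨hm, h3⟩ := hφ2 w (e.symm (pr n F q y))
    rw [MulEquiv.apply_symm_apply, hw, toAut_pr, ← h1] at h3
    rw [hκ, hκ, h3, MulEquiv.symm_apply_apply]
  -- the squares
  have hsq : ∀ w ∈ V, ∀ (A : GU n F q) (ρ : F ≃+* F), φ w = toAut A ρ → ρ * ρ = 1 ∧
      ∃ c : F, c * c ^ q = 1 ∧ gm (A * mapGU ρ A) = c • (1 : Matrix (Fin n) (Fin n) F) := by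
    intro w hw A ρ hA
    have h1 : toAut (A * mapGU ρ A) (ρ * ρ) = toAut (1 : GU n F q) 1 := by
      rw [← toAut_mul, ← hA, ← map_mul, h.sq hw, map_one]
      symm
      exact (Cfsg.Agent.Schreier.PSU.f₁ (F := F) (q := q) (n := n)).map_one
    obtain ⟨h3, c, hc, h4⟩ := eq_of_toAut_eq hF hn h1.symm
    refine ⟨h3, c, hc, ?_⟩
    rw [h4, gm_one]
  have hlin : ∀ w ∈ V, ∀ A : GU n F q, φ w = toAut A 1 → LinRep κ w := by
    intro w hw A hA
    obtain ⟨-, c, hc, h4⟩ := hsq w hw A 1 hA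
    have h5 : gm A * gm A = c • (1 : Matrix (Fin n) (Fin n) F) := by
      rw [← h4, gm_mul]
      congr 1
    obtain ⟨C, d, hC, hd, hAC⟩ := exists_lin hF hq hc h5
    refine ⟨C, hC, ?_⟩
    apply hinj
    have h6 : φ (κ C) = MulAut.conj (pr n F q C) := by
      rw [hκ, hφ, MulEquiv.apply_symm_apply]
    rw [h6, hA]
    apply MulEquiv.ext
    intro t
    obtain ⟨y, rfl⟩ := pr_surjective t
    rw [toAut_pr, MulAut.conj_apply, ← map_inv, ← map_mul, ← map_mul]
    congr 1
    apply ext_act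
    intro v
    have hv : v = gm A *ᵥ fun i => (1 : F ≃+* F) ((gm A⁻¹ *ᵥ v) i) := by
      have : (fun i => (1 : F ≃+* F) ((gm A⁻¹ *ᵥ v) i)) = gm A⁻¹ *ᵥ v := rfl
      rw [this, gm_mulVec_inv]
    rw [hv, act_semiConj]
    generalize gm A⁻¹ *ᵥ v = t
    show act (C * y * C⁻¹) (gm A *ᵥ t) = gm A *ᵥ act y t
    have hg : ∀ t : Fin n → F, gm A *ᵥ t = d • act C t := fun t => by rw [hAC, Matrix.smul_mulVec]; rfl
    rw [hg, hg, act_smul, act_mul, act_mul, act_inv_act]
  have hcj : ∀ ρ : F ≃+* F, ρ * ρ = 1 → ρ ≠ 1 → ρ = Cfsg.Agent.LieClassical.HermBasic.conj hF := by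
    intro ρ h1 h3
    have h4 : orderOf ρ = 2 := orderOf_eq_prime (by rw [pow_two]; exact h1) h3
    ext a
    exact H199.PslGraphField.eq_pow hF h4 a
  refine ⟨κ, ?_, ?_, ?_⟩
  · intro y y' hy
    apply exists_scalar_of_pr_eq hF hn
    apply e.symm.injective
    exact Subtype.ext hy
  · intro w hw hnl
    obtain ⟨A, ρ, hA⟩ := Cfsg.Agent.ClassicalGeometry.PSUAutMain.exists_toAut hF hn h32 (φ w)
    by_cases hρ : ρ = 1
    · subst hρ
      exact absurd (hlin w hw A hA) hnl
    · obtain ⟨h1, c, hc, h4⟩ := hsq w hw A ρ hA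
      have hρq := hcj ρ h1 hρ
      refine ⟨fun u => gm A *ᵥ fun i => ρ (u i), ?_, ?_, ?_, ?_⟩
      · rw [← hρq]
        exact ⟨S_add A ρ, S_smul A ρ, S_herm A ρ⟩
      · -- the square
        have hS2 : ∀ u : Fin n → F, (gm A *ᵥ fun i => ρ ((gm A *ᵥ fun j => ρ (u j)) i)) = c • u := by
          intro u
          have h5 := S_S A A ρ ρ u
          rw [S_def, S_def, S_def, h4, h1, Matrix.smul_mulVec, Matrix.one_mulVec] at h5
          exact h5
        have hc1 : c = 1 := by
          have h5 : ∀ u : Fin n → F, (c ^ q - c) • (gm A *ᵥ fun i => ρ (u i)) = 0 := by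
            intro u
            have h6 := hS2 (gm A *ᵥ fun i => ρ (u i))
            have h7 : (gm A *ᵥ fun i => ρ ((gm A *ᵥ fun j => ρ ((gm A *ᵥ fun k => ρ (u k)) j)) i)) =
                c ^ q • (gm A *ᵥ fun i => ρ (u i)) := by
              rw [hS2 u]
              have h8 := S_smul A ρ c u
              rw [S_def, S_def] at h8
              rw [h8, hρq]
              rfl
            rw [h7] at h6
            rw [sub_smul, h6, sub_self]
          have h9 : c ^ q - c = 0 := by
            by_contra hne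
            have h10 := h5 ((fun i => ρ.symm ((gm A⁻¹ *ᵥ (fun _ => (1 : F))) i)))
            have h11 : (fun i => ρ ((fun i => ρ.symm ((gm A⁻¹ *ᵥ (fun _ => (1 : F))) i)) i)) =
                gm A⁻¹ *ᵥ (fun _ => (1 : F)) := by
              funext i
              simp
            rw [h11, gm_mulVec_inv] at h10
            rcases smul_eq_zero.1 h10 with h12 | h12
            · exact hne h12
            · have := congrFun h12 ⟨0, by omega⟩
              exact one_ne_zero this
          have h13 : c ^ q = c := sub_eq_zero.1 h9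
          rw [h13] at hc
          exact eq_one_of_sq h2 hc
        intro u
        have := hS2 u
        rw [hc1, one_smul] at this
        exact this
      · exact fun y => ⟨semiConj A ρ y, fun u => (act_semiConj A ρ y u).symm⟩
      · exact fun y y' hy => key w A ρ hA y y' hy
  · intro w hw w' hw' hl hl'
    obtain ⟨A, ρ, hA⟩ := Cfsg.Agent.ClassicalGeometry.PSUAutMain.exists_toAut hF hn h32 (φ w)
    obtain ⟨A', ρ', hA'⟩ := Cfsg.Agent.ClassicalGeometry.PSUAutMain.exists_toAut hF hn h32 (φ w')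
    have hρ : ρ ≠ 1 := by
      rintro rfl
      exact hl (hlin w hw A hA)
    have hρ' : ρ' ≠ 1 := by
      rintro rfl
      exact hl' (hlin w' hw' A' hA')
    have h1 := hcj ρ (hsq w hw A ρ hA).1 hρ
    have h3 := hcj ρ' (hsq w' hw' A' ρ' hA').1 hρ'
    have h4 : ρ * ρ' = 1 := by
      have := (hsq w hw A ρ hA).1
      rwa [h3, ← h1]
    apply hlin (w * w') (V.mul_mem hw hw') (A * mapGU ρ A')
    rw [map_mul, hA, hA', toAut_mul, h4]

end Frame

end Cfsg.Agent.H259.SK
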