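import Cfsg.Agent.H259.SK.Pair

/-!
# S3010, `PSU_n(q)`, `q` even: the element `x` and the killing elements `y` (helper259)
-/

set_option autoImplicit false
set_option linter.unusedSectionVars false
set_option linter.unusedVariables false
set_option linter.unusedSimpArgs false

namespace Cfsg.Agent.H259.SK

open Matrix Cfsg
open Cfsg.Agent.LieClassical.HermBasic Cfsg.Agent.LieClassical.HermSiegel

section Geo

variable {F : Type*} [Field F] [Fintype F] {q n : ℕ}

/-- a killing element: odd, not scalar, commuting with `B`, `x`, inverted by `S` -/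
def Kill (B x : SU n F q) (S : (Fin n → F) → (Fin n → F)) : Prop :=
  ∃ y : SU n F q, y ^ (q + 1) = 1 ∧ (¬ ∃ c : F, ∀ u, act y u = c • u) ∧ B * y = y * B ∧ x * y = y * x ∧
    ∀ u, S (act y u) = act y⁻¹ (S u)

theorem kill_of_tor (hF : Fintype.card F = q ^ 2) {ρ : F ≃+* F} {S : (Fin n → F) → (Fin n → F)} (hS : Semi q ρ S)
    {B x : SU n F q} {ι : Type*} [Fintype ι] [DecidableEq ι] (z : ι → (Fin n → F)) (γ : ι → F) (hz : ON q z)
    (hn : ∀ i, γ i * γ i ^ q = 1) (hp : ∏ i, γ i = 1)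
    (hns : (∃ i j, γ i ≠ γ j) ∨ (∃ i, γ i ≠ 1 ∧ Fintype.card ι < n))
    (πB : Equiv.Perm ι) (hB : ∀ i, act B (z i) = z (πB i)) (hB' : ∀ i, γ i = γ (πB i))
    (hx : ∀ i, ∃ c : F, c * c ^ q = 1 ∧ act x (z i) = c • z i)
    (πS : Equiv.Perm ι) (hSz : ∀ i, S (z i) = z (πS i)) (hS' : ∀ i, ρ (γ i) = γ (πS i) ^ q) : Kill B x S := by
  obtain ⟨y, hy⟩ := exists_tor hF hz hn hp
  refine ⟨y, hy.pow_eq_one hz fun i => by rw [pow_succ']; exact hn i, ?_, ?_, ?_, ?_⟩
  · rintro ⟨c, hc⟩
    have hne : ∀ i, z i ≠ 0 := by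
      intro i h0
      have := hz i i
      rw [h0, herm_zero_left, if_pos rfl] at this
      exact zero_ne_one this
    have h1 : ∀ i, γ i = c := by
      intro i
      have h2 := hy.apply hz i
      rw [hc] at h2
      have h3 : (c - γ i) • z i = 0 := by rw [sub_smul, h2, sub_self]
      rcases smul_eq_zero.1 h3 with h4 | h4
      · exact (sub_eq_zero.1 h4).symm
      · exact absurd h4 (hne i)
    rcases hns with ⟨i, j, hij⟩ | ⟨i, hi, hlt⟩
    · exact hij (by rw [h1, h1])
    · obtain ⟨u, hu0, hu⟩ := exists_orth hF z hlt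
      have h2 := hy.orth hu
      rw [hc] at h2
      have h3 : (c - 1) • u = 0 := by rw [sub_smul, h2, one_smul, sub_self]
      rcases smul_eq_zero.1 h3 with h4 | h4
      · exact hi (by rw [h1]; exact sub_eq_zero.1 h4)
      · exact hu0 h4
  · exact comm_of_perm hy πB (fun i => ⟨1, by rw [one_pow, one_mul], by rw [one_smul]; exact hB i⟩) hB'
  · exact comm_of_eigen hy hx
  · exact fun u => hS.conj_tor hy (hy.inv hF hz hn) πS
      (fun i => ⟨1, by rw [one_pow, one_mul], by rw [one_smul]; exact hSz i⟩) hS' u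

/-! ### Pairs -/

/-- `z i ↔ B (z i)`: orthonormal pairs swapped by `B` -/
structure Pairs (B : SU n F q) {ι : Type*} [DecidableEq ι] (z : ι → (Fin n → F)) : Prop where
  on : ON q z
  orth : ∀ i j, hermForm n F q (z i) (act B (z j)) = 0

/-- the doubled family -/
def dbl (B : SU n F q) {ι : Type*} (z : ι → (Fin n → F)) : ι ⊕ ι → (Fin n → F) :=
  Sum.elim z (fun i => act B (z i))

theorem Pairs.dbl_on (hF : Fintype.card F = q ^ 2) {B : SU n F q} {ι : Type*} [DecidableEq ι] {z : ι → (Fin n → F)}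
    (h : Pairs B z) : ON q (dbl B z) := by
  rintro (i | i) (j | j)
  · show hermForm n F q (z i) (z j) = _
    rw [h.on]
    by_cases hij : i = j
    · rw [if_pos hij, if_pos (by rw [hij])]
    · rw [if_neg hij, if_neg (fun h => hij (Sum.inl.inj h))]
  · show hermForm n F q (z i) (act B (z j)) = _
    rw [h.orth, if_neg (by simp)]
  · show hermForm n F q (act B (z i)) (z j) = _
    rw [herm_eq_zero_swap hF (h.orth j i), if_neg (by simp)]
  · show hermForm n F q (act B (z i)) (act B (z j)) = _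
    rw [herm_act, h.on]
    by_cases hij : i = j
    · rw [if_pos hij, if_pos (by rw [hij])]
    · rw [if_neg hij, if_neg (fun h => hij (Sum.inr.inj h))]

theorem act_act {B : SU n F q} (hB : B * B = 1) (u : Fin n → F) : act B (act B u) = u := by
  rw [← act_mul, hB, act_one]

/-- the form `h(Ca + a, b)` on a nondegenerate `C`-invariant subspace -/
theorem exists_swap_in (hF : Fintype.card F = q ^ 2) (h2 : (2 : F) = 0) {C : SU n F q} (hC : C * C = 1)
    {X : Submodule F (Fin n → F)} (hX : Good q (act C) X) {u : Fin n → F} (hu : u ∈ X) (hCu : act C u ≠ u) :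
    ∃ t ∈ X, hermForm n F q t t = 1 ∧ hermForm n F q t (act C t) = 0 := by
  by_contra hcon
  push Not at hcon
  have h0 : ∀ a ∈ X, hermForm n F q (act C a + a) a = 0 := by
    intro a ha
    by_contra h1
    obtain ⟨s, t, h3, h4⟩ := exists_swap hF h2 (Semi.of_act C) (act_act hC) h1
    exact hcon _ (X.add_mem (X.smul_mem s ha) (X.smul_mem t (hX.inv a ha))) h3 h4
  have h5 : act C u + u ≠ 0 := fun h => hCu (eq_of_add_W h2 h)
  have h6 : act C u + u ∈ X := X.add_mem (hX.inv u hu) hu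
  obtain ⟨b, hb, hne⟩ := hX.nondeg _ h6 h5
  apply hne
  exact polar (h := fun a b => hermForm n F q (act C a + a) b) hF X
    (fun a a' b => by
      rw [act_add, ← herm_add_left]
      congr 1
      abel)
    (fun a b b' => herm_add_right hF _ _ _)
    (fun c a b => by rw [act_smul, ← smul_add, herm_smul_left])
    (fun c a b => herm_smul_right _ _ _) h0 hu hb

theorem exists_pairs_succ (hF : Fintype.card F = q ^ 2) (h2 : (2 : F) = 0) {B : SU n F q} (hB : B * B = 1)
    {r : ℕ} {z : Fin r → (Fin n → F)} (h : Pairs B z) {u : Fin n → F} (hu : ∀ i, hermForm n F q u (dbl B z i) = 0)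
    (hBu : act B u ≠ u) : ∃ z' : Fin (r + 1) → (Fin n → F), Pairs B z' := by
  have hg : Good q (act B) (perp q ⊤ (dbl B z)) := by
    apply Good.perp hF (Semi.of_act B) (act_act hB) (Good.top hF _) (h.dbl_on hF) (fun _ => Submodule.mem_top)
    rintro (i | i)
    · exact ⟨1, Sum.inr i, by rw [one_smul]; rfl⟩
    · exact ⟨1, Sum.inl i, by rw [one_smul]; exact act_act hB _⟩
  obtain ⟨t, ht, htt, htB⟩ := exists_swap_in hF h2 hB hg ⟨Submodule.mem_top, hu⟩ hBu
  have h1 : ∀ i, hermForm n F q t (z i) = 0 := fun i => ht.2 (Sum.inl i)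
  have h3 : ∀ i, hermForm n F q t (act B (z i)) = 0 := fun i => ht.2 (Sum.inr i)
  refine ⟨Fin.cons t z, ?_, ?_⟩
  · intro i j
    refine Fin.cases ?_ (fun i => ?_) i <;> refine Fin.cases ?_ (fun j => ?_) j
    · rw [Fin.cons_zero, htt, if_pos rfl]
    · rw [Fin.cons_zero, Fin.cons_succ, h1, if_neg (Fin.succ_ne_zero j).symm]
    · rw [Fin.cons_zero, Fin.cons_succ, herm_eq_zero_swap hF (h1 i), if_neg (Fin.succ_ne_zero i)]
    · rw [Fin.cons_succ, Fin.cons_succ, h.on]
      simp only [Fin.succ_inj]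
  · intro i j
    refine Fin.cases ?_ (fun i => ?_) i <;> refine Fin.cases ?_ (fun j => ?_) j
    · rw [Fin.cons_zero, htB]
    · rw [Fin.cons_zero, Fin.cons_succ, h3]
    · rw [Fin.cons_zero, Fin.cons_succ]
      have := herm_act B (z i) (act B t)
      rw [act_act hB] at this
      rw [← this]
      exact herm_eq_zero_swap hF (h3 i)
    · rw [Fin.cons_succ, Fin.cons_succ, h.orth]

/-- **A complete system of pairs.** -/
theorem exists_pairs (hF : Fintype.card F = q ^ 2) (h2 : (2 : F) = 0) {B : SU n F q} (hB : B * B = 1) :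
    ∃ (r : ℕ) (z : Fin r → (Fin n → F)), Pairs B z ∧
      ∀ u, (∀ i, hermForm n F q u (dbl B z i) = 0) → act B u = u := by
  by_contra hcon
  push Not at hcon
  have h1 : ∀ r : ℕ, ∃ z : Fin r → (Fin n → F), Pairs B z := by
    intro r
    induction r with
    | zero => exact ⟨fun i => i.elim0, fun i => i.elim0, fun i => i.elim0⟩
    | succ r ih =>
      obtain ⟨z, hz⟩ := ih
      obtain ⟨u, hu, hBu⟩ := hcon r z hz
      exact exists_pairs_succ hF h2 hB hz hu hBu
  obtain ⟨z, hz⟩ := h1 (n + 1)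
  have h3 := (hz.dbl_on hF).card_le
  rw [Fintype.card_sum, Fintype.card_fin] at h3
  omega

/-! ### The element `x` -/

/-- eigenspaces -/
def Eg (x : SU n F q) (l : F) : Submodule F (Fin n → F) where
  carrier := {u | act x u = l • u}
  zero_mem' := by
    show act x 0 = l • 0
    rw [act_zero, smul_zero]
  add_mem' := fun {a b} ha hb => by
    show act x (a + b) = l • (a + b)
    rw [act_add, show act x a = l • a from ha, show act x b = l • b from hb, smul_add]
  smul_mem' := fun c a ha => by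
    show act x (c • a) = l • (c • a)
    rw [act_smul, show act x a = l • a from ha, smul_comm]

theorem mem_Eg {x : SU n F q} {l : F} {u : Fin n → F} : u ∈ Eg x l ↔ act x u = l • u := Iff.rfl

/-- the data of `x` -/
structure XS (B x : SU n F q) (Λ : Set F) : Prop where
  hB : B * B = 1
  inv : B * x = x⁻¹ * B
  norm : ∀ l ∈ Λ, l * l ^ q = 1
  ne_one : ∀ l ∈ Λ, l ≠ 1
  ne : ∀ l ∈ Λ, ∀ m ∈ Λ, l ≠ m ^ q
  one : ∀ u ∈ Eg x 1, act B u = u
  full : ∀ u, (∀ l ∈ Λ, ∀ a ∈ Eg x l, hermForm n F q u a = 0 ∧ hermForm n F q u (act B a) = 0) → u ∈ Eg x 1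
  nondeg_one : ∀ u ∈ Eg x 1, u ≠ 0 → ∃ v ∈ Eg x 1, hermForm n F q u v ≠ 0
  nonempty : ∀ l ∈ Λ, Eg x l ≠ ⊥

theorem exists_XS (hF : Fintype.card F = q ^ 2) {B : SU n F q} (hB : B * B = 1) {ι : Type*} [Fintype ι] [DecidableEq ι]
    {z : ι → (Fin n → F)} (hz : Pairs B z) (hc : ∀ u, (∀ i, hermForm n F q u (dbl B z i) = 0) → act B u = u)
    (e : ι → F) (hn : ∀ i, e i * e i ^ q = 1) (h1 : ∀ i, e i ≠ 1) (hne : ∀ i j, e i ≠ e j ^ q) :
    ∃ x : SU n F q, x ^ (q + 1) = 1 ∧ IsTor x (dbl B z) (Sum.elim e (fun i => e i ^ q)) ∧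
      XS B x (Set.range e) := by
  have hqq : ∀ a : F, (a ^ q) ^ q = a := pow_q_pow_q hF
  have hon := hz.dbl_on hF
  have hγ : ∀ i : ι ⊕ ι, Sum.elim e (fun i => e i ^ q) i * Sum.elim e (fun i => e i ^ q) i ^ q = 1 := by
    rintro (i | i)
    · exact hn i
    · show e i ^ q * (e i ^ q) ^ q = 1
      rw [hqq, mul_comm]; exact hn i
  have hγ1 : ∀ i : ι ⊕ ι, Sum.elim e (fun i => e i ^ q) i ≠ 1 := by
    rintro (i | i)
    · exact h1 i
    · intro h
      have h' : e i ^ q = 1 := h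
      have := hn i
      rw [h', mul_one] at this
      exact h1 i this
  obtain ⟨x, hx⟩ := exists_tor hF hon hγ (by
    rw [Fintype.prod_sum_type]
    simp only [Sum.elim_inl, Sum.elim_inr]
    rw [← Finset.prod_mul_distrib]
    exact Finset.prod_eq_one fun i _ => hn i)
  have heig : ∀ i, act x (dbl B z i) = Sum.elim e (fun i => e i ^ q) i • dbl B z i := hx.apply hon
  have hor1 : ∀ u ∈ Eg x 1, ∀ i, hermForm n F q u (dbl B z i) = 0 := fun u hu i =>
    orth_of_eigen hF (hγ i) (hγ1 i).symm hu (heig i)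
  refine ⟨x, hx.pow_eq_one hon fun i => by rw [pow_succ']; exact hγ i, hx, hB, ?_, ?_, ?_, ?_, ?_, ?_, ?_, ?_⟩
  · refine inv_of_perm hF hon hγ hx (Equiv.sumComm ι ι) ?_ ?_
    · rintro (i | i)
      · exact ⟨1, by rw [one_pow, one_mul], by rw [one_smul]; rfl⟩
      · exact ⟨1, by rw [one_pow, one_mul], by rw [one_smul]; exact act_act hB _⟩
    · rintro (i | i)
      · exact (hqq (e i)).symm
      · rfl
  · rintro _ ⟨i, rfl⟩; exact hn i
  · rintro _ ⟨i, rfl⟩; exact h1 i
  · rintro _ ⟨i, rfl⟩ _ ⟨j, rfl⟩; exact hne i j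
  · intro u hu
    exact hc u (hor1 u hu)
  · intro u hu
    show act x u = (1 : F) • u
    rw [one_smul]
    apply hx.orth
    rintro (i | i)
    · exact (hu (e i) ⟨i, rfl⟩ (z i) (heig (Sum.inl i))).1
    · exact (hu (e i) ⟨i, rfl⟩ (z i) (heig (Sum.inl i))).2
  · intro u hu hu0
    obtain ⟨w, hw⟩ := exists_herm_ne_zero hF hu0
    refine ⟨w - ∑ i, hermForm n F q w (dbl B z i) • dbl B z i, ?_, ?_⟩
    · show act x _ = (1 : F) • _
      rw [one_smul]
      apply hx.orth
      intro i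
      rw [herm_sub_left, herm_sum_z hon, sub_self]
    · rw [herm_sub_right hF, herm_sum_right hF, Finset.sum_eq_zero, sub_zero]
      · exact hw
      · intro i _
        rw [herm_smul_right, hor1 u hu i, mul_zero]
  · rintro _ ⟨i, rfl⟩ h0
    have h3 : z i ∈ Eg x (e i) := heig (Sum.inl i)
    rw [h0, Submodule.mem_bot] at h3
    have h4 := hz.on i i
    rw [h3, herm_zero_left, if_pos rfl] at h4
    exact zero_ne_one h4

namespace XS

variable {B x : SU n F q} {Λ : Set F}

/-- `B` maps the `l`-eigenspace to the `l^q`-eigenspace -/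
theorem act_B (hF : Fintype.card F = q ^ 2) (h : XS B x Λ) {l : F} (hl : l * l ^ q = 1) {u : Fin n → F}
    (hu : u ∈ Eg x l) : act B u ∈ Eg x (l ^ q) := by
  have h1 : act x (act B u) = act B (act x⁻¹ u) := by
    rw [← act_mul, ← act_mul]
    congr 1
    have h3 : x * (B * x) = B := by rw [h.inv]; group
    calc x * B = x * (B * x) * x⁻¹ := by group
      _ = B * x⁻¹ := by rw [h3]
  have hl0 : l ≠ 0 := by
    rintro rfl
    rw [zero_mul] at hl
    exact zero_ne_one hl
  have h2 : act x⁻¹ u = l ^ q • u := by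
    have h3 : act x (l ^ q • u) = u := by
      rw [act_smul, mem_Eg.1 hu, smul_smul, mul_comm, hl, one_smul]
    rw [← h3, act_inv_act, h3]
  rw [mem_Eg, h1, h2, act_smul]

theorem nondeg (hF : Fintype.card F = q ^ 2) (h : XS B x Λ) {l : F} (hl : l ∈ Λ) :
    ∀ u ∈ Eg x l, u ≠ 0 → ∃ v ∈ Eg x l, hermForm n F q u v ≠ 0 := by
  intro u hu hu0
  by_contra hcon
  push Not at hcon
  have h1 : u ∈ Eg x 1 := by
    apply h.full
    intro m hm a ha
    refine ⟨?_, ?_⟩
    · by_cases hlm : l = m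
      · exact hcon a (hlm ▸ ha)
      · exact orth_of_eigen hF (h.norm m hm) hlm hu ha
    · have h3 := h.act_B hF (h.norm m hm) ha
      exact orth_of_eigen hF (by rw [pow_q_pow_q hF, mul_comm]; exact h.norm m hm) (h.ne l hl m hm) hu h3
  have h3 : (l - 1) • u = 0 := by
    rw [sub_smul, ← mem_Eg.1 hu, mem_Eg.1 h1, sub_self]
  rcases smul_eq_zero.1 h3 with h4 | h4
  · exact h.ne_one l hl (sub_eq_zero.1 h4)
  · exact hu0 h4

/-- eigenvectors -/
theorem orthB (hF : Fintype.card F = q ^ 2) (h : XS B x Λ) {l m : F} (hl : l ∈ Λ) (hm : m ∈ Λ) {a b : Fin n → F}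
    (ha : a ∈ Eg x l) (hb : b ∈ Eg x m) : hermForm n F q a (act B b) = 0 :=
  orth_of_eigen hF (by rw [pow_q_pow_q hF, mul_comm]; exact h.norm m hm) (h.ne l hl m hm) ha
    (h.act_B hF (h.norm m hm) hb)

theorem orth_one (hF : Fintype.card F = q ^ 2) (h : XS B x Λ) {l : F} (hl : l ∈ Λ) {a b : Fin n → F}
    (ha : a ∈ Eg x l) (hb : b ∈ Eg x 1) : hermForm n F q a b = 0 :=
  orth_of_eigen hF (by rw [one_pow, one_mul]) (h.ne_one l hl) ha hb

end XS

end Geo

end Cfsg.Agent.H259.SK
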