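import Cfsg.Agent.H259.SK.Geo

/-!
# S3010, `PSU_n(q)`, `q` even: the linear elements (helper259)
-/

set_option autoImplicit false
set_option linter.unusedSectionVars false
set_option linter.unusedVariables false
set_option linter.unusedSimpArgs false

namespace Cfsg.Agent.H259.SK

open Matrix Cfsg
open Cfsg.Agent.LieClassical.HermBasic Cfsg.Agent.LieClassical.HermSiegel

section Lin

variable {F : Type*} [Field F] [Fintype F] {q n : ℕ}

theorem sum_elim_on {κ κ' : Type*} [DecidableEq κ] [DecidableEq κ'] {a : κ → (Fin n → F)} {c : κ' → (Fin n → F)}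
    (ha : ON q a) (hc : ON q c) (h : ∀ i j, hermForm n F q (a i) (c j) = 0)
    (h' : ∀ i j, hermForm n F q (c j) (a i) = 0) : ON q (Sum.elim a c) := by
  rintro (i | i) (j | j)
  · show hermForm n F q (a i) (a j) = _
    rw [ha]
    by_cases hij : i = j
    · rw [if_pos hij, if_pos (by rw [hij])]
    · rw [if_neg hij, if_neg (fun h => hij (Sum.inl.inj h))]
  · show hermForm n F q (a i) (c j) = _
    rw [h, if_neg (by simp)]
  · show hermForm n F q (c i) (a j) = _
    rw [h', if_neg (by simp)]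
  · show hermForm n F q (c i) (c j) = _
    rw [hc]
    by_cases hij : i = j
    · rw [if_pos hij, if_pos (by rw [hij])]
    · rw [if_neg hij, if_neg (fun h => hij (Sum.inr.inj h))]

/-- killing elements supported on a doubled family `a, B a` of eigenvectors and a family `c` of fixed vectors -/
theorem kill_dbl (hF : Fintype.card F = q ^ 2) {B x : SU n F q} {Λ : Set F} (h : XS B x Λ) {ρ : F ≃+* F}
    {S : (Fin n → F) → (Fin n → F)} (hS : Semi q ρ S) {κ κ' : Type*} [Fintype κ] [DecidableEq κ] [Fintype κ']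
    [DecidableEq κ'] (a : κ → (Fin n → F)) (l : κ → F) (hl : ∀ i, l i ∈ Λ) (ha : ∀ i, a i ∈ Eg x (l i)) (haon : ON q a)
    (c : κ' → (Fin n → F)) (hc : ∀ i, c i ∈ Eg x 1) (hcon : ON q c)
    (γ : κ → F) (δ : κ' → F) (hγ : ∀ i, γ i * γ i ^ q = 1) (hδ : ∀ i, δ i * δ i ^ q = 1)
    (hp : (∏ i, γ i) * (∏ i, γ i) * (∏ i, δ i) = 1)
    (hns : (∃ i j, Sum.elim γ δ i ≠ Sum.elim γ δ j) ∨
      (∃ i, Sum.elim γ δ i ≠ 1 ∧ Fintype.card κ + Fintype.card κ + Fintype.card κ' < n))
    (πS : Equiv.Perm ((κ ⊕ κ) ⊕ κ')) (hSz : ∀ i, S (Sum.elim (dbl B a) c i) = Sum.elim (dbl B a) c (πS i))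
    (hS' : ∀ i, ρ (Sum.elim (Sum.elim γ γ) δ i) = Sum.elim (Sum.elim γ γ) δ (πS i) ^ q) : Kill B x S := by
  have hpairs : Pairs B a := ⟨haon, fun i j => h.orthB hF (hl i) (hl j) (ha i) (ha j)⟩
  have hBe : ∀ i, act B (a i) ∈ Eg x (l i ^ q) := fun i => h.act_B hF (h.norm _ (hl i)) (ha i)
  have hBc : ∀ i, act B (c i) = c i := fun i => h.one _ (hc i)
  have o1 : ∀ i j, hermForm n F q (dbl B a i) (c j) = 0 := by
    rintro (i | i) j
    · exact h.orth_one hF (hl i) (ha i) (hc j)
    · have h1 := herm_act B (a i) (c j)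
      rw [hBc] at h1
      exact h1.trans (h.orth_one hF (hl i) (ha i) (hc j))
  have hon : ON q (Sum.elim (dbl B a) c) :=
    sum_elim_on (hpairs.dbl_on hF) hcon o1 (fun i j => herm_eq_zero_swap hF (o1 i j))
  apply kill_of_tor hF hS (Sum.elim (dbl B a) c) (Sum.elim (Sum.elim γ γ) δ) hon ?_ ?_ ?_
    (Equiv.sumCongr (Equiv.sumComm κ κ) (Equiv.refl κ')) ?_ ?_ ?_ πS hSz hS'
  · rintro ((i | i) | i)
    · exact hγ i
    · exact hγ i
    · exact hδ i
  · rw [Fintype.prod_sum_type, Fintype.prod_sum_type]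
    exact hp
  · rcases hns with ⟨i, j, hij⟩ | ⟨i, hi, hlt⟩
    · left
      have key : ∀ i : κ ⊕ κ', ∃ i' : (κ ⊕ κ) ⊕ κ', Sum.elim (Sum.elim γ γ) δ i' = Sum.elim γ δ i := by
        rintro (i | i)
        · exact ⟨Sum.inl (Sum.inl i), rfl⟩
        · exact ⟨Sum.inr i, rfl⟩
      obtain ⟨i', hi'⟩ := key i
      obtain ⟨j', hj'⟩ := key j
      exact ⟨i', j', by rw [hi', hj']; exact hij⟩
    · right
      have key : ∀ i : κ ⊕ κ', ∃ i' : (κ ⊕ κ) ⊕ κ', Sum.elim (Sum.elim γ γ) δ i' = Sum.elim γ δ i := by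
        rintro (i | i)
        · exact ⟨Sum.inl (Sum.inl i), rfl⟩
        · exact ⟨Sum.inr i, rfl⟩
      obtain ⟨i', hi'⟩ := key i
      exact ⟨i', by rw [hi']; exact hi, by rw [Fintype.card_sum, Fintype.card_sum]; exact hlt⟩
  · rintro ((i | i) | i)
    · rfl
    · exact act_act h.hB _
    · exact hBc i
  · rintro ((i | i) | i) <;> rfl
  · rintro ((i | i) | i)
    · exact ⟨l i, h.norm _ (hl i), ha i⟩
    · exact ⟨l i ^ q, by rw [pow_q_pow_q hF, mul_comm]; exact h.norm _ (hl i), hBe i⟩
    · exact ⟨1, by rw [one_pow, one_mul], hc i⟩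

/-- **Linear elements.** -/
theorem kill_lin (hF : Fintype.card F = q ^ 2) (h2 : (2 : F) = 0) {B x : SU n F q} {Λ : Set F} (h : XS B x Λ)
    {α : F} (hα : α * α ^ q = 1) (hα1 : α ≠ 1) {C : SU n F q} (hC : C * C = 1) (hC1 : C ≠ 1) (hCB : C * B = B * C)
    (hCx : C * x = x * C) : Kill B x (act C) := by
  have hCB' : ∀ u, act C (act B u) = act B (act C u) := fun u => by rw [← act_mul, hCB, act_mul]
  have hCx' : ∀ u, act C (act x u) = act x (act C u) := fun u => by rw [← act_mul, hCx, act_mul]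
  have hCE : ∀ l, ∀ u ∈ Eg x l, act C u ∈ Eg x l := by
    intro l u hu
    rw [mem_Eg, ← hCx', mem_Eg.1 hu, act_smul]
  have hαq : α ^ q ≠ α := by
    intro h1
    rw [h1] at hα
    exact hα1 (eq_one_of_sq h2 hα)
  -- a moved eigenvector
  obtain ⟨l, hl, u, hu, hCu⟩ : ∃ l, (l ∈ Λ ∨ l = 1) ∧ ∃ u ∈ Eg x l, act C u ≠ u := by
    by_contra hcon
    push Not at hcon
    apply hC1
    apply ext_act
    intro u
    rw [act_one]
    have hfix : ∀ a, act C a = a → hermForm n F q (act C u + u) a = 0 := by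
      intro a ha
      have h1 : hermForm n F q (act C u) a = hermForm n F q u a := by
        rw [← herm_act C u a, ha]
      rw [herm_add_left, h1]
      exact add_self_F h2 _
    have h3 : act C u + u ∈ Eg x 1 := by
      apply h.full
      intro l hl a ha
      have ha' := hcon l (Or.inl hl) a ha
      exact ⟨hfix a ha', hfix _ (by rw [hCB', ha'])⟩
    by_contra hne
    obtain ⟨v, hv, hv'⟩ := h.nondeg_one _ h3 (fun h0 => hne (eq_of_add_W h2 h0))
    exact hv' (hfix v (hcon 1 (Or.inr rfl) v hv))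
  rcases hl with hl | rfl
  · obtain ⟨t, ht, htt, htC⟩ := exists_swap_in hF h2 hC ⟨hCE l, h.nondeg hF hl⟩ hu hCu
    have htC' := herm_eq_zero_swap hF htC
    have hCC : hermForm n F q (act C t) (act C t) = 1 := by rw [herm_act, htt]
    refine kill_dbl hF h (Semi.of_act C) ![t, act C t] (fun _ => l) (fun _ => hl) ?_ ?_ (Fin.elim0 : Fin 0 → _)
      (fun i => i.elim0) (fun i => i.elim0) ![α, α ^ q] (fun i => i.elim0) ?_ (fun i => i.elim0) ?_ ?_
      (Equiv.sumCongr (Equiv.sumCongr (Equiv.swap 0 1) (Equiv.swap 0 1)) (Equiv.refl _)) ?_ ?_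
    · intro i
      fin_cases i
      · exact ht
      · exact hCE l t ht
    · intro i j
      fin_cases i <;> fin_cases j <;> simp [htt, htC, htC', hCC]
    · intro i
      fin_cases i
      · exact hα
      · show α ^ q * (α ^ q) ^ q = 1
        rw [pow_q_pow_q hF, mul_comm]; exact hα
    · simp [hα]
    · left
      exact ⟨Sum.inl 0, Sum.inl 1, fun h => hαq h.symm⟩
    · rintro ((i | i) | i)
      · fin_cases i
        · rfl
        · exact act_act hC t
      · fin_cases i
        · exact hCB' t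
        · show act C (act B (act C t)) = act B t
          rw [hCB', act_act hC]
      · exact i.elim0
    · rintro ((i | i) | i)
      · fin_cases i
        · exact (pow_q_pow_q hF α).symm
        · rfl
      · fin_cases i
        · exact (pow_q_pow_q hF α).symm
        · rfl
      · exact i.elim0
  · obtain ⟨t, ht, htt, htC⟩ := exists_swap_in hF h2 hC ⟨hCE 1, h.nondeg_one⟩ hu hCu
    have htC' := herm_eq_zero_swap hF htC
    have hCC : hermForm n F q (act C t) (act C t) = 1 := by rw [herm_act, htt]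
    refine kill_dbl hF h (Semi.of_act C) (Fin.elim0 : Fin 0 → _) (fun i => i.elim0) (fun i => i.elim0)
      (fun i => i.elim0) (fun i => i.elim0) ![t, act C t] ?_ ?_ (fun i => i.elim0) ![α, α ^ q] (fun i => i.elim0) ?_
      ?_ ?_ (Equiv.sumCongr (Equiv.refl _) (Equiv.swap 0 1)) ?_ ?_
    · intro i
      fin_cases i
      · exact ht
      · exact hCE 1 t ht
    · intro i j
      fin_cases i <;> fin_cases j <;> simp [htt, htC, htC', hCC]
    · intro i
      fin_cases i
      · exact hα
      · show α ^ q * (α ^ q) ^ q = 1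
        rw [pow_q_pow_q hF, mul_comm]; exact hα
    · simp [hα]
    · left
      exact ⟨Sum.inr 0, Sum.inr 1, fun h => hαq h.symm⟩
    · rintro ((i | i) | i)
      · exact i.elim0
      · exact i.elim0
      · fin_cases i
        · rfl
        · exact act_act hC t
    · rintro ((i | i) | i)
      · exact i.elim0
      · exact i.elim0
      · fin_cases i
        · exact (pow_q_pow_q hF α).symm
        · rfl

end Lin

end Cfsg.Agent.H259.SK
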