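import Cfsg.Agent.H259.SK.Frame

/-!
# S3010, the row `PSU_n(q)`, `q` even (helper259)
-/

set_option autoImplicit false
set_option linter.unusedSectionVars false
set_option linter.unusedVariables false
set_option linter.unusedSimpArgs false

universe u

namespace Cfsg.Agent.H259.SK

open Subgroup Matrix Cfsg Cfsg.Agent.H282.SK
open Cfsg.Agent.LieClassical.HermBasic Cfsg.Agent.LieClassical.HermSiegel

section Main

variable {F : Type*} [Field F] [Fintype F] {q n : ℕ} {hF : Fintype.card F = q ^ 2}
variable {G : Type u} [Group G] {V K : Subgroup G} {κ : SU n F q →* G}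

theorem exists_vec_ne (hn : 0 < n) : ∃ u : Fin n → F, u ≠ 0 :=
  ⟨fun _ => 1, fun h => one_ne_zero (congrFun h ⟨0, hn⟩)⟩

theorem comm_lin (h2 : (2 : F) = 0) (hn : 0 < n) (hf : Fr hF V κ) {C D : SU n F q} (hD : D * D = 1)
    (hc : Commute (κ C) (κ D)) : C * D = D * C := by
  obtain ⟨c, hcn, h⟩ := hf.ker D (C * D * C⁻¹) (by rw [map_mul, map_mul, map_inv, hc.eq]; group)
  have h3 : c = 1 := by
    obtain ⟨u, hu⟩ := exists_vec_ne (F := F) hn
    have h4 : act (C * D * C⁻¹) (act (C * D * C⁻¹) u) = u := by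
      rw [← act_mul]
      have : C * D * C⁻¹ * (C * D * C⁻¹) = 1 := by
        calc C * D * C⁻¹ * (C * D * C⁻¹) = C * (D * D) * C⁻¹ := by group
          _ = 1 := by rw [hD]; group
      rw [this, act_one]
    rw [h, h, act_smul, act_act hD, smul_smul] at h4
    have h5 : (c * c - 1) • u = 0 := by rw [sub_smul, h4, one_smul, sub_self]
    rcases smul_eq_zero.1 h5 with h6 | h6
    · exact eq_one_of_sq h2 (sub_eq_zero.1 h6)
    · exact absurd h6 hu
  have h4 : C * D * C⁻¹ = D := by
    apply ext_act
    intro u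
    rw [h, h3, one_smul]
  calc C * D = (C * D * C⁻¹) * C := by group
    _ = D * C := by rw [h4]

theorem comm_out (h2 : (2 : F) = 0) (hn : 0 < n) (hf : Fr hF V κ) {w : G} {S : (Fin n → F) → (Fin n → F)}
    (hr : OutRep hF κ w S) {D : SU n F q} (hD : D * D = 1) (hc : Commute w (κ D)) (u : Fin n → F) :
    S (act D u) = act D (S u) := by
  obtain ⟨y', hy'⟩ := hr.ex D
  obtain ⟨c, hcn, h⟩ := hf.ker D y' (by rw [← hr.conj D y' hy', hc.eq]; group)
  have h3 : c = 1 := by
    obtain ⟨u, hu⟩ := exists_vec_ne (F := F) hn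
    have h4 : act y' (act y' (S (S u))) = u := by
      rw [← hy', ← hy', act_act hD, hr.sq]
    rw [h, h, act_smul, act_act hD, smul_smul, hr.sq] at h4
    have h5 : (c * c - 1) • u = 0 := by rw [sub_smul, h4, one_smul, sub_self]
    rcases smul_eq_zero.1 h5 with h6 | h6
    · exact eq_one_of_sq h2 (sub_eq_zero.1 h6)
    · exact absurd h6 hu
  rw [hy', h, h3, one_smul]

/-- a non-scalar element is nontrivial in `G` -/
theorem ne_one_of (hf : Fr hF V κ) {y : SU n F q} (hy : ¬ ∃ c : F, ∀ u, act y u = c • u) : κ y ≠ 1 := by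
  intro h
  obtain ⟨c, hc, h1⟩ := hf.ker 1 y (by rw [h, map_one])
  exact hy ⟨c, fun u => by rw [h1, act_one]⟩

theorem odd_of_pow (hq : Even q) {y : SU n F q} (hy : y ^ (q + 1) = 1) : Odd (orderOf (κ y)) := by
  have h1 : (κ y) ^ (q + 1) = 1 := by rw [← map_pow, hy, map_one]
  exact Odd.of_dvd_nat (Even.add_one hq) (orderOf_dvd_of_pow_eq_one h1)

variable [Finite G]

theorem t1_out (hq : Even q) (hn : 0 < n) (h : Cx V K) (hf : Fr hF V κ) {B x : SU n F q} {Λ : Set F}
    (hx : XS B x Λ) (hxo : x ^ (q + 1) = 1) (hBV : κ B ∈ V) (hB1 : κ B ≠ 1) {α : F} (hα : α * α ^ q = 1)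
    (hα1 : α ≠ 1) :
    ∃ w ∈ V, w ≠ 1 ∧ ¬ LinRep κ w ∧ ∃ S, OutRep hF κ w S ∧ Anti hF B x S ∧ ¬ Kill B x S := by
  have h2 : (2 : F) = 0 := H277.UnfPsuEven.two_zero hF hq
  have hinv : κ B * κ x * (κ B)⁻¹ = (κ x)⁻¹ := by
    rw [← map_mul, hx.inv, map_mul, map_inv]; group
  obtain ⟨w, hwV, hw1, hwx, hwO⟩ := h.t1 hBV hB1 (odd_of_pow hq hxo) hinv
  have hwB : Commute w (κ B) := h.comm hwV hBV
  have hD : B * x * (B * x) = 1 := by
    calc B * x * (B * x) = (x⁻¹ * B) * (B * x) := by rw [hx.inv]
      _ = x⁻¹ * (B * B) * x := by group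
      _ = 1 := by rw [hx.hB]; group
  have hwD : Commute w (κ (B * x)) := by
    rw [map_mul]; exact hwB.mul_right hwx
  have hxBD : x = B * (B * x) := by rw [← mul_assoc, hx.hB, one_mul]
  have nokill : ∀ S : (Fin n → F) → (Fin n → F), (∀ y : SU n F q, (∀ u, S (act y u) = act y⁻¹ (S u)) →
      w * κ y * w⁻¹ = κ y⁻¹) → ¬ Kill B x S := by
    rintro S hS ⟨y, hyo, hyn, hyB, hyx, hyS⟩
    apply ne_one_of hf hyn
    refine eq_one_of_inv hwO (mem_inf.2 ⟨mem_centralizer_singleton_iff.2 ?_, mem_centralizer_singleton_iff.2 ?_⟩)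
      (odd_of_pow hq hyo) ?_
    · rw [← map_mul, ← map_mul, hyB]
    · rw [← map_mul, ← map_mul, hyx]
    · rw [hS y hyS, map_inv]
  by_cases hl : LinRep κ w
  · exfalso
    obtain ⟨C, hC, rfl⟩ := hl
    have hCB := comm_lin h2 hn hf hx.hB hwB
    have hCD := comm_lin h2 hn hf hD hwD
    have hCx : C * x = x * C := by
      calc C * x = C * B * (B * x) := by rw [mul_assoc, ← hxBD]
        _ = B * (C * (B * x)) := by rw [hCB, mul_assoc]
        _ = B * (B * x) * C := by rw [hCD]; simp only [mul_assoc]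
        _ = x * C := by rw [← hxBD]
    have hC1 : C ≠ 1 := by
      rintro rfl
      exact hw1 (map_one κ)
    refine nokill (act C) (fun y hy => ?_) (kill_lin hF h2 hx hα hα1 hC hC1 hCB hCx)
    have h3 : C * y = y⁻¹ * C := by
      apply ext_act
      intro u
      rw [act_mul, act_mul, hy]
    rw [← map_mul, h3, map_mul]; group
  · obtain ⟨S, hS⟩ := hf.rep w hwV hl
    have hSB := comm_out h2 hn hf hS hx.hB hwB
    have hSD := comm_out h2 hn hf hS hD hwD
    refine ⟨w, hwV, hw1, hl, S, hS, ⟨hS.semi, hS.sq, hSB, ?_⟩, nokill S fun y hy => hS.conj y y⁻¹ hy⟩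
    intro u
    have h3 : ∀ v, act x v = act B (act (B * x) v) := fun v => by rw [← act_mul, ← hxBD]
    rw [h3, hSB, hSD, ← h3]

/-- elements of norm one -/
theorem exists_alpha (hF : Fintype.card F = q ^ 2) (hq : Even q) :
    ∃ α : F, α * α ^ q = 1 ∧ α ≠ 1 ∧ (q ≠ 2 → α ^ 3 ≠ 1) := by
  classical
  have h2 := two_le hF
  by_cases hq2 : q = 2
  · obtain ⟨ζ, hζ, hζ1⟩ := Cfsg.Agent.ClassicalGeometry.GUBasic.exists_norm_one hF
    exact ⟨ζ, by rw [← pow_succ', hζ], hζ1, fun h => absurd hq2 h⟩
  · have hc := card_norm_eq_one hF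
    by_contra hcon
    push Not at hcon
    have h3 : ∀ α : F, α * α ^ q = 1 → α ^ 3 = 1 := by
      intro α hα
      by_cases h1 : α = 1
      · rw [h1, one_pow]
      · exact (hcon α hα h1).2
    have h4 : Nat.card {x : F // x * x ^ q = 1} ≤ 3 := by
      have hinj : Function.Injective (fun x : {x : F // x * x ^ q = 1} =>
          (⟨x.1, by
            rw [Multiset.mem_toFinset, Polynomial.mem_nthRoots (by norm_num : 0 < 3)]
            exact h3 x.1 x.2⟩ : {x : F // x ∈ (Polynomial.nthRoots 3 (1 : F)).toFinset})) := by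
        intro x y hxy
        exact Subtype.ext (congrArg (fun t => t.1) hxy)
      refine (Nat.card_le_card_of_injective _ hinj).trans ?_
      rw [Nat.card_eq_fintype_card, Fintype.card_coe]
      exact (Multiset.toFinset_card_le _).trans (Polynomial.card_nthRoots 3 (1 : F))
    rw [hc] at h4
    obtain ⟨k, hk⟩ := hq
    omega

/-- **The leftover `PSU_6(2)`.** -/
theorem special_false (hq2 : q = 2) (hn : n = 6) (h : Cx V K) (hf : Fr hF V κ) {w : G} (hwV : w ∈ V) (hw1 : w ≠ 1)
    (hwl : ¬ LinRep κ w) {S : (Fin n → F) → (Fin n → F)} (hr : OutRep hF κ w S) (hs : Special q S) : False := by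
  have hq : Even q := by rw [hq2]; norm_num
  have h2 : (2 : F) = 0 := H277.UnfPsuEven.two_zero hF hq
  have hn0 : 0 < n := by omega
  obtain ⟨β, hβ, hβ1, -⟩ := exists_alpha hF hq
  have hββ : β ≠ β ^ q := ne_q h2 hβ hβ1
  have hβq1 : β ^ q ≠ 1 := by
    intro h1
    rw [h1, mul_one] at hβ
    exact hβ1 hβ
  have hqq : ∀ a : F, (a ^ q) ^ q = a := pow_q_pow_q hF
  obtain ⟨P, P', hon, hSP, hSP'⟩ := hs
  set g : Fin 3 → F := ![1, β, β ^ q] with hg
  have hgn : ∀ i, g i * g i ^ q = 1 := by
    intro i
    fin_cases i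
    · show (1 : F) * 1 ^ q = 1
      rw [one_pow, one_mul]
    · exact hβ
    · exact norm_q hF hβ
  have hgne : ∀ i j, i ≠ j → g i ≠ g j := by
    intro i j hij
    fin_cases i <;> fin_cases j
    · exact absurd rfl hij
    · exact hβ1.symm
    · exact hβq1.symm
    · exact hβ1
    · exact absurd rfl hij
    · exact hββ
    · exact hβq1
    · exact hββ.symm
    · exact absurd rfl hij
  have hγn : ∀ i : Fin 3 ⊕ Fin 3, Sum.elim g g i * Sum.elim g g i ^ q = 1 := by
    rintro (i | i) <;> exact hgn i
  obtain ⟨x, hx⟩ := exists_tor hF hon hγn (by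
    rw [Fintype.prod_sum_type]
    simp only [Sum.elim_inl, Sum.elim_inr, Fin.prod_univ_three]
    show 1 * β * β ^ q * (1 * β * β ^ q) = 1
    linear_combination (β * β ^ q + 1) * hβ)
  have hxo : x ^ (q + 1) = 1 := hx.pow_eq_one hon fun i => by rw [pow_succ']; exact hγn i
  have heP : ∀ i, P i ∈ Eg x (g i) := fun i => hx.apply hon (Sum.inl i)
  have heP' : ∀ i, P' i ∈ Eg x (g i) := fun i => hx.apply hon (Sum.inr i)
  have hSx : ∀ u, S (act x u) = act x⁻¹ (S u) := by
    refine hr.semi.conj_tor hx (hx.inv hF hon hγn) (Equiv.sumComm _ _) ?_ ?_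
    · rintro (i | i)
      · exact ⟨1, by rw [one_pow, one_mul], by rw [one_smul]; exact hSP i⟩
      · exact ⟨1, by rw [one_pow, one_mul], by rw [one_smul]; exact hSP' i⟩
    · rintro (i | i) <;> rfl
  have hwx : w * κ x * w⁻¹ = (κ x)⁻¹ := by rw [hr.conj x x⁻¹ hSx, map_inv]
  have hx1 : κ x ≠ 1 := by
    apply ne_one_of hf
    rintro ⟨c, hc⟩
    have h3 := mem_Eg.1 (heP 0)
    have h4 := mem_Eg.1 (heP 1)
    rw [hc] at h3 h4
    have key : ∀ i, c • P i = g i • P i → c = g i := by
      intro i hi
      have h5 := congrArg (fun t => hermForm n F q t (P i)) hi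
      simp only [herm_smul_left] at h5
      have h6 : hermForm n F q (P i) (P i) = 1 := by
        have := hon (Sum.inl i) (Sum.inl i)
        rwa [if_pos rfl] at this
      rw [h6, mul_one, mul_one] at h5
      exact h5
    exact hgne 0 1 (by decide) ((key 0 h3).symm.trans (key 1 h4))
  obtain ⟨w', hwV', hw1', hwx', hwO'⟩ := h.t1 hwV hw1 (odd_of_pow hq hxo) hwx
  have hww : Commute w w' := h.comm hwV hwV'
  -- the elements `y i`
  have hpair : ∀ i, ON q ![P i, P' i] := by
    intro i
    refine ON.pair ?_ ?_ ?_ ?_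
    · have := hon (Sum.inl i) (Sum.inl i); rwa [if_pos rfl] at this
    · have := hon (Sum.inr i) (Sum.inr i); rwa [if_pos rfl] at this
    · have := hon (Sum.inl i) (Sum.inr i); rwa [if_neg (by simp)] at this
    · have := hon (Sum.inr i) (Sum.inl i); rwa [if_neg (by simp)] at this
  have hδn : ∀ i, ![β, β ^ q] i * ![β, β ^ q] i ^ q = 1 := by
    intro i; fin_cases i
    · exact hβ
    · exact norm_q hF hβ
  have hy : ∀ i, ∃ y : SU n F q, IsTor y ![P i, P' i] ![β, β ^ q] := fun i =>
    exists_tor hF (hpair i) hδn (by simp [hβ])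
  choose y hy using hy
  have hyo : ∀ i, y i ^ (q + 1) = 1 := fun i => (hy i).pow_eq_one (hpair i) fun j => by
    rw [pow_succ']; exact hδn j
  have hyP : ∀ i, act (y i) (P i) = β • P i := fun i => (hy i).apply (hpair i) 0
  have hyP' : ∀ i, act (y i) (P' i) = β ^ q • P' i := fun i => (hy i).apply (hpair i) 1
  have hPP : ∀ i, hermForm n F q (P i) (P i) = 1 := fun i => by
    have := hon (Sum.inl i) (Sum.inl i); rwa [if_pos rfl] at this
  have hPP' : ∀ i, hermForm n F q (P' i) (P' i) = 1 := fun i => by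
    have := hon (Sum.inr i) (Sum.inr i); rwa [if_pos rfl] at this
  have hyx : ∀ i, x * y i = y i * x := by
    intro i
    apply comm_of_eigen (hy i)
    intro j
    fin_cases j
    · exact ⟨g i, hgn i, heP i⟩
    · exact ⟨g i, hgn i, heP' i⟩
  have hyw : ∀ i, w * κ (y i) * w⁻¹ = κ (y i) := by
    intro i
    apply hr.conj
    refine hr.semi.conj_tor (hy i) (hy i) (Equiv.swap 0 1) ?_ ?_
    · intro j; fin_cases j
      · exact ⟨1, by rw [one_pow, one_mul], by rw [one_smul]; exact hSP i⟩
      · exact ⟨1, by rw [one_pow, one_mul], by rw [one_smul]; exact hSP' i⟩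
    · intro j; fin_cases j
      · rfl
      · exact hqq β
  have hyC : ∀ i, κ (y i) ∈ centralizer ({w} : Set G) ⊓ centralizer ({κ x} : Set G) := by
    intro i
    refine mem_inf.2 ⟨mem_centralizer_singleton_iff.2 ?_, mem_centralizer_singleton_iff.2 ?_⟩
    · have := hyw i
      rw [mul_inv_eq_iff_eq_mul] at this
      exact this.symm
    · rw [← map_mul, ← map_mul, hyx]
  have hynon : ∀ (i : Fin 3) (c : F), ¬ (c • P i = β • P i ∧ c • P' i = β ^ q • P' i) := by
    rintro i c ⟨h3, h4⟩
    have h5 := congrArg (fun t => hermForm n F q t (P i)) h3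
    have h6 := congrArg (fun t => hermForm n F q t (P' i)) h4
    simp only [herm_smul_left, hPP, hPP', mul_one] at h5 h6
    exact hββ (h5.symm.trans h6)
  have hy1 : ∀ i, κ (y i) ≠ 1 := by
    intro i
    apply ne_one_of hf
    rintro ⟨c, hc⟩
    exact hynon i c ⟨by rw [← hc, hyP], by rw [← hc, hyP']⟩
  by_cases hl : LinRep κ w'
  · obtain ⟨C, hC, rfl⟩ := hl
    have hCx : x * C = C * x := comm_lin h2 hn0 hf hC hwx'.symm
    have hCS := comm_out h2 hn0 hf hr hC hww
    have hCE : ∀ l, ∀ u ∈ Eg x l, act C u ∈ Eg x l := by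
      intro l u hu
      rw [mem_Eg, ← act_mul, hCx, act_mul, mem_Eg.1 hu, act_smul]
    -- expansion
    have hexp : ∀ i, act C (P i) = hermForm n F q (act C (P i)) (P i) • P i +
        hermForm n F q (act C (P i)) (P' i) • P' i := by
      intro i
      rw [← sub_eq_zero]
      apply hon.eq_zero (by simp [hn])
      rintro (j | j)
      · show hermForm n F q (act C (P i) - (hermForm n F q (act C (P i)) (P i) • P i +
          hermForm n F q (act C (P i)) (P' i) • P' i)) (P j) = 0
        have a1 : hermForm n F q (P' i) (P j) = 0 := by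
          have := hon (Sum.inr i) (Sum.inl j); rwa [if_neg (by simp)] at this
        rw [herm_sub_left, herm_add_left, herm_smul_left, herm_smul_left, a1, mul_zero, add_zero]
        by_cases hij : i = j
        · subst hij
          rw [hPP, mul_one, sub_self]
        · have a2 : hermForm n F q (P i) (P j) = 0 := by
            have := hon (Sum.inl i) (Sum.inl j)
            rwa [if_neg (fun h => hij (Sum.inl.inj h))] at this
          rw [a2, mul_zero, sub_zero]
          exact orth_of_eigen hF (hgn j) (hgne i j hij) (hCE _ _ (heP i)) (heP j)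
      · show hermForm n F q (act C (P i) - (hermForm n F q (act C (P i)) (P i) • P i +
          hermForm n F q (act C (P i)) (P' i) • P' i)) (P' j) = 0
        have a1 : hermForm n F q (P i) (P' j) = 0 := by
          have := hon (Sum.inl i) (Sum.inr j); rwa [if_neg (by simp)] at this
        rw [herm_sub_left, herm_add_left, herm_smul_left, herm_smul_left, a1, mul_zero, zero_add]
        by_cases hij : i = j
        · subst hij
          rw [hPP', mul_one, sub_self]
        · have a2 : hermForm n F q (P' i) (P' j) = 0 := by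
            have := hon (Sum.inr i) (Sum.inr j)
            rwa [if_neg (fun h => hij (Sum.inr.inj h))] at this
          rw [a2, mul_zero, sub_zero]
          exact orth_of_eigen hF (hgn j) (hgne i j hij) (hCE _ _ (heP i)) (heP' j)
    -- a plane on which `C` is nontrivial
    obtain ⟨i, hi⟩ : ∃ i, hermForm n F q (act C (P i)) (P' i) ≠ 0 := by
      by_contra hcon
      push Not at hcon
      apply hw1'
      have h3 : ∀ i, act C (P i) = P i := by
        intro i
        have h4 := hexp i
        rw [hcon i, zero_smul, add_zero] at h4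
        have h5 : (hermForm n F q (act C (P i)) (P i)) * (hermForm n F q (act C (P i)) (P i)) = 1 := by
          have h6 := act_act hC (P i)
          rw [h4, act_smul, h4, smul_smul] at h6
          have h7 := congrArg (fun t => hermForm n F q t (P i)) h6
          simp only [herm_smul_left, hPP, mul_one] at h7
          exact h7
        rw [h4, eq_one_of_sq h2 h5, one_smul]
      have h4 : ∀ i, act C (P' i) = P' i := by
        intro i
        rw [← hSP, ← hCS, h3]
      have : C = 1 := by
        apply ext_act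
        intro u
        rw [act_one, ← sub_eq_zero]
        apply hon.eq_zero (by simp [hn])
        rintro (j | j)
        · show hermForm n F q (act C u - u) (P j) = 0
          have h5 := herm_act C u (P j)
          rw [h3] at h5
          rw [herm_sub_left, h5, sub_self]
        · show hermForm n F q (act C u - u) (P' j) = 0
          have h5 := herm_act C u (P' j)
          rw [h4] at h5
          rw [herm_sub_left, h5, sub_self]
      rw [this, map_one]
    set a := hermForm n F q (act C (P i)) (P i) with ha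
    set b := hermForm n F q (act C (P i)) (P' i) with hb
    have h3 : act C (P i) = a • P i + b • P' i := hexp i
    have h4 : act C (P' i) = a ^ q • P' i + b ^ q • P i := by
      rw [← hSP, ← hCS, h3, hr.semi.add, hr.semi.smul, hr.semi.smul, hSP, hSP']
      rfl
    have hPo : hermForm n F q (P i) (P' i) = 0 := by
      have := hon (Sum.inl i) (Sum.inr i); rwa [if_neg (by simp)] at this
    have hPo' : hermForm n F q (P' i) (P i) = 0 := herm_eq_zero_swap hF hPo
    have h5 := act_act hC (P i)
    rw [h3, act_add, act_smul, act_smul, h3, h4] at h5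
    have h6 := congrArg (fun t => hermForm n F q t (P i)) h5
    have h7 := congrArg (fun t => hermForm n F q t (P' i)) h5
    simp only [herm_add_left, herm_smul_left, hPP, hPP', hPo, hPo', mul_one, mul_zero, add_zero, zero_add] at h6 h7
    have h8 : a + a ^ q = 0 := by
      have h9 : b * (a + a ^ q) = 0 := by linear_combination h7
      rcases mul_eq_zero.1 h9 with h10 | h10
      · exact absurd h10 hi
      · exact h10
    have ha0 : a = 0 := by
      rw [hq2] at h8
      have h9 : a * (1 + a) = 0 := by linear_combination h8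
      rcases mul_eq_zero.1 h9 with h10 | h10
      · exact h10
      · exfalso
        have h11 : a = 1 := by linear_combination h10 - h2
        rw [h11] at h6
        have h12 : b * b ^ q = 0 := by linear_combination h6
        rcases mul_eq_zero.1 h12 with h13 | h13
        · exact hi h13
        · exact hi ((pow_q_eq_zero hF).1 h13)
    have hbn : b * b ^ q = 1 := by
      rw [ha0] at h6
      linear_combination h6
    rw [ha0, zero_smul, zero_add] at h3
    rw [ha0, zero_pow_q hF, zero_smul, zero_add] at h4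
    have h9 : C * y i = (y i)⁻¹ * C := by
      refine inv_of_perm hF (hpair i) hδn (hy i) (Equiv.swap 0 1) ?_ ?_
      · intro j; fin_cases j
        · exact ⟨b, hbn, h3⟩
        · exact ⟨b ^ q, norm_q hF hbn, h4⟩
      · intro j; fin_cases j
        · exact (hqq β).symm
        · rfl
    apply hy1 i
    apply eq_one_of_inv hwO' (hyC i) (odd_of_pow hq (hyo i))
    rw [← map_mul, h9, map_mul, map_inv]; group
  · obtain ⟨D, hD, hDw⟩ := hf.coset w' hwV' w hwV hl hwl
    have hw' : w' = κ D * w⁻¹ := by rw [hDw]; group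
    -- `D` inverts `x` modulo scalars
    have h3 : κ (D * x * D⁻¹) = κ x⁻¹ := by
      rw [map_mul, map_mul, map_inv, map_inv, hDw]
      calc w' * w * κ x * (w' * w)⁻¹ = w' * (w * κ x * w⁻¹) * w'⁻¹ := by group
        _ = w' * (κ x)⁻¹ * w'⁻¹ := by rw [hwx]
        _ = (κ x)⁻¹ := by rw [(hwx'.inv_right).eq]; group
    obtain ⟨c, hcn, hc⟩ := hf.ker _ _ h3.symm
    have hc0 : c ≠ 0 := by
      rintro rfl
      rw [zero_mul] at hcn
      exact zero_ne_one hcn
    have hDinv : D⁻¹ = D := by rw [inv_eq_iff_mul_eq_one, hD]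
    -- images of eigenvectors
    have hDE : ∀ l : F, l * l ^ q = 1 → ∀ u ∈ Eg x l, act D u ∈ Eg x (c * l ^ q) := by
      intro l hl u hu
      have hxu : act x⁻¹ u = l ^ q • u := by
        have h5 : act x (l ^ q • u) = u := by
          rw [act_smul, mem_Eg.1 hu, smul_smul, mul_comm, hl, one_smul]
        rw [← h5, act_inv_act, h5]
      -- `D x⁻¹ D = c⁻¹ x`
      have h6 : ∀ v, act (D * x * D⁻¹) v = c • act x⁻¹ v := hc
      have h7 : act (D * x * D⁻¹) (act x (act D u)) = c • act D u := by
        rw [h6, act_inv_act]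
      have h8 : act x (act D u) = c • act (D * x⁻¹ * D⁻¹) (act D u) := by
        have h9 : ∀ v, act (D * x⁻¹ * D⁻¹) (act (D * x * D⁻¹) v) = v := by
          intro v
          rw [← act_mul]
          have : D * x⁻¹ * D⁻¹ * (D * x * D⁻¹) = 1 := by group
          rw [this, act_one]
        rw [← act_smul, ← h7, h9]
      rw [mem_Eg, h8, ← act_mul]
      have : D * x⁻¹ * D⁻¹ * D = D * x⁻¹ := by group
      rw [this, act_mul, hxu, act_smul, smul_smul]
    -- choose the plane
    obtain ⟨i, hi⟩ : ∃ i, c * g i ^ q ≠ g i := by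
      by_contra hcon
      push Not at hcon
      have h4 := hcon 0
      have h5 := hcon 1
      have h6 : c * (1 : F) ^ q = 1 := h4
      have h7 : c * β ^ q = β := h5
      rw [one_pow, mul_one] at h6
      rw [h6, one_mul] at h7
      exact hββ h7.symm
    have hgiq : g i ^ q * (g i ^ q) ^ q = 1 := norm_q hF (hgn i)
    have hmn : (c * g i ^ q) * (c * g i ^ q) ^ q = 1 := by
      rw [mul_pow]
      linear_combination (g i ^ q * (g i ^ q) ^ q) * hcn + hgiq
    -- `D y D⁻¹` is trivial on the plane
    have htriv : ∀ u ∈ Eg x (g i), act (D * y i * D⁻¹) u = u := by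
      intro u hu
      rw [act_mul, act_mul, hDinv]
      have h4 := hDE (g i) (hgn i) u hu
      have h5 : act (y i) (act D u) = act D u := by
        apply (hy i).orth
        intro j
        fin_cases j
        · exact orth_of_eigen hF (hgn i) hi h4 (heP i)
        · exact orth_of_eigen hF (hgn i) hi h4 (heP' i)
      rw [h5, act_act hD]
    have hcomm : (D * y i * D⁻¹) * y i = y i * (D * y i * D⁻¹) := by
      apply comm_of_eigen (hy i)
      intro j
      fin_cases j
      · exact ⟨1, by rw [one_pow, one_mul], by rw [one_smul]; exact htriv _ (heP i)⟩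
      · exact ⟨1, by rw [one_pow, one_mul], by rw [one_smul]; exact htriv _ (heP' i)⟩
    have hwy : w' * κ (y i) * w'⁻¹ = κ (D * y i * D⁻¹) := by
      have h4 : w⁻¹ * κ (y i) * w = κ (y i) := by
        calc w⁻¹ * κ (y i) * w = w⁻¹ * (w * κ (y i) * w⁻¹) * w := by rw [hyw]
          _ = κ (y i) := by group
      rw [hw', map_mul, map_mul, map_inv]
      calc κ D * w⁻¹ * κ (y i) * (κ D * w⁻¹)⁻¹ = κ D * (w⁻¹ * κ (y i) * w) * (κ D)⁻¹ := by group
        _ = _ := by rw [h4]
    have hodd : Odd (orderOf (w' * κ (y i) * w'⁻¹ * (κ (y i))⁻¹)) := by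
      rw [hwy, ← map_inv, ← map_mul]
      apply odd_of_pow hq
      have h4 : Commute (D * y i * D⁻¹) (y i)⁻¹ := Commute.inv_right hcomm
      rw [h4.mul_pow, conj_pow, hyo, inv_pow, hyo]
      group
    have h4 := commute_of_odd_comm hwO' (hyC i) hodd
    have h5 : κ (D * y i * D⁻¹) = κ (y i) := by
      rw [← hwy, h4.eq]; group
    obtain ⟨s, hs, hs'⟩ := hf.ker _ _ h5
    apply hynon i s
    constructor
    · rw [← hyP i, hs', htriv _ (heP i)]
    · rw [← hyP' i, hs', htriv _ (heP' i)]

/-- **The row.** -/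
theorem false_of_psu (hq : Even q) (hn : 3 ≤ n) (h32 : ¬ (n = 3 ∧ q = 2)) (h42 : ¬ (n = 4 ∧ q = 2))
    (h : Cx V K) (hf : Fr hF V κ) : False := by
  have h2 : (2 : F) = 0 := H277.UnfPsuEven.two_zero hF hq
  have hn0 : 0 < n := by omega
  -- a linear element of `V`
  obtain ⟨v, hv, hv1, hvl⟩ : ∃ v ∈ V, v ≠ 1 ∧ LinRep κ v := by
    by_contra hcon
    push Not at hcon
    obtain ⟨a, b, hab, ha, hb⟩ : ∃ a b : V, a ≠ b ∧ a ≠ 1 ∧ b ≠ 1 := by
      have h3 : 1 < Nat.card V := by have := h.card; omega
      have : Nontrivial V := Finite.one_lt_card_iff_nontrivial.1 h3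
      obtain ⟨a, ha⟩ := exists_ne (1 : V)
      by_contra hc
      push Not at hc
      have h4 : ∀ b : V, b = 1 ∨ b = a := by
        intro b
        by_contra hb
        push Not at hb
        exact hb.1 (hc a b hb.2.symm ha)
      have h5 : Nat.card V ≤ 2 := by
        have h6 : Function.Surjective (fun i : Fin 2 => if i = 0 then (1 : V) else a) := by
          intro b
          rcases h4 b with rfl | rfl
          · exact ⟨0, rfl⟩
          · exact ⟨1, rfl⟩
        have := Nat.card_le_card_of_surjective _ h6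
        simpa using this
      have := h.card
      omega
    have ha' : (a : G) ≠ 1 := fun h => ha (Subtype.ext h)
    have hb' : (b : G) ≠ 1 := fun h => hb (Subtype.ext h)
    have h3 := hf.coset a a.2 b b.2 (hcon a a.2 ha') (hcon b b.2 hb')
    refine hcon (a * b) (V.mul_mem a.2 b.2) ?_ h3
    intro h4
    apply hab
    have h5 : (a : G) = (b : G)⁻¹ := by rw [eq_inv_iff_mul_eq_one]; exact h4
    rw [h.inv_eq b.2] at h5
    exact Subtype.ext h5
  obtain ⟨B, hB, rfl⟩ := hvl
  have hB1 : B ≠ 1 := by
    rintro rfl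
    exact hv1 (map_one κ)
  obtain ⟨α, hα, hα1, hα3⟩ := exists_alpha hF hq
  obtain ⟨r, z, hz, hc⟩ := exists_pairs hF h2 hB
  have hr0 : 0 < r := by
    rcases Nat.eq_zero_or_pos r with rfl | h3
    · exfalso
      apply hB1
      apply ext_act
      intro u
      rw [act_one]
      apply hc
      rintro (i | i) <;> exact i.elim0
    · exact h3
  have hαα : α ≠ α ^ q := ne_q h2 hα hα1
  by_cases hcase : q = 2 ∨ r = 1
  · -- one eigenvalue
    obtain ⟨x, hxo, hxt, hx⟩ := exists_XS hF hB hz hc (fun _ => α) (fun _ => hα) (fun _ => hα1) (fun _ _ => hαα)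
    have : Nonempty (Fin r) := ⟨⟨0, hr0⟩⟩
    rw [Set.range_const] at hx
    obtain ⟨w, hw, hw1, hwl, S, hrep, hanti, hnk⟩ := t1_out hq hn0 h hf hx hxo hv hv1 hα hα1
    have h3 : α ^ 3 = 1 → q = 2 ∧ n ≠ 3 ∧ n ≠ 4 := by
      intro h3
      have h4 : q = 2 := by
        by_contra h5
        exact hα3 h5 h3
      exact ⟨h4, fun h5 => h32 ⟨h5, h4⟩, fun h5 => h42 ⟨h5, h4⟩⟩
    have h4 : q = 2 ∨ ∀ p ∈ Eg x α, ∀ p' ∈ Eg x α, hermForm n F q p p = 1 → hermForm n F q p' p' = 1 →
        hermForm n F q p p' ≠ 0 := by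
      rcases hcase with h3 | h3
      · exact Or.inl h3
      · right
        subst h3
        have hz0 : hermForm n F q (z 0) (z 0) = 1 := by
          have := hz.on 0 0; rwa [if_pos rfl] at this
        have hzE : z 0 ∈ Eg x α := hxt.apply (hz.dbl_on hF) (Sum.inl 0)
        have hline : ∀ p ∈ Eg x α, p = hermForm n F q p (z 0) • z 0 := by
          intro p hp
          have hd : p - hermForm n F q p (z 0) • z 0 ∈ Eg x α := (Eg x α).sub_mem hp ((Eg x α).smul_mem _ hzE)
          have h5 : act x (p - hermForm n F q p (z 0) • z 0) = p - hermForm n F q p (z 0) • z 0 := by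
            apply hxt.orth
            rintro (i | i)
            · obtain rfl : i = 0 := Subsingleton.elim _ _
              show hermForm n F q (p - hermForm n F q p (z 0) • z 0) (z 0) = 0
              rw [herm_sub_left, herm_smul_left, hz0, mul_one, sub_self]
            · obtain rfl : i = 0 := Subsingleton.elim _ _
              exact hx.orthB hF rfl rfl hd hzE
          rw [mem_Eg, h5] at hd
          have h6 : (α - 1) • (p - hermForm n F q p (z 0) • z 0) = 0 := by
            rw [sub_smul, one_smul, ← hd, sub_self]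
          rcases smul_eq_zero.1 h6 with h7 | h7
          · exact absurd (sub_eq_zero.1 h7) hα1
          · exact sub_eq_zero.1 h7
        intro p hp p' hp' hpp hpp' h0
        rw [hline p hp, hline p' hp'] at h0
        rw [hline p hp] at hpp
        rw [hline p' hp'] at hpp'
        rw [herm_smul_left, herm_smul_right, hz0, mul_one] at h0 hpp hpp'
        rcases mul_eq_zero.1 h0 with h7 | h7
        · rw [h7, zero_mul] at hpp
          exact zero_ne_one hpp
        · rw [h7, mul_zero] at hpp'
          exact zero_ne_one hpp'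
    rcases kill_one h2 hx hanti hα hα1 hn h3 h4 with h5 | ⟨h5, h6, h7⟩
    · exact hnk h5
    · exact special_false h5 h6 h hf hw hw1 hwl hrep h7
  · push Not at hcase
    obtain ⟨hq2, hr1⟩ := hcase
    have hα3' := hα3 hq2
    have hα0 : α ≠ 0 := by
      rintro rfl
      rw [zero_mul] at hα
      exact zero_ne_one hα
    have h21 : α ^ 2 ≠ 1 := by
      intro h3
      exact hα1 (eq_one_of_sq h2 (by rw [← pow_two]; exact h3))
    have h2n : α ^ 2 * (α ^ 2) ^ q = 1 := by
      calc α ^ 2 * (α ^ 2) ^ q = (α * α ^ q) ^ 2 := by ring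
        _ = 1 := by rw [hα, one_pow]
    have h2q : (α ^ 2) ^ q = (α ^ q) ^ 2 := by rw [← pow_mul, ← pow_mul, mul_comm]
    have hαα2 := ne_q2 hα hα3'
    obtain ⟨x, hxo, hxt, hx⟩ := exists_XS hF hB hz hc (fun i => if i.val = 0 then α else α ^ 2)
      (fun i => by by_cases hi : i.val = 0 <;> simp only [hi, if_true, if_false] <;> assumption)
      (fun i => by by_cases hi : i.val = 0 <;> simp only [hi, if_true, if_false] <;> assumption)
      (fun i j => by
        by_cases hi : i.val = 0 <;> by_cases hj : j.val = 0 <;> simp only [hi, hj, if_true, if_false]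
        · exact hαα
        · rw [h2q]; exact hαα2.symm
        · intro h3
          apply hαα2
          rw [← h2q, h3, pow_q_pow_q hF]
        · exact ne_q h2 h2n h21)
    obtain ⟨w, hw, hw1, hwl, S, hrep, hanti, hnk⟩ := t1_out hq hn0 h hf hx hxo hv hv1 hα hα1
    refine hnk (kill_two h2 hx hanti hα hα3' (l := α) (m := α ^ 2) ⟨⟨0, hr0⟩, by simp⟩ ⟨⟨1, by omega⟩, by simp⟩ ?_)
    intro h3
    apply hα1
    have h4 : α * (α - 1) = 0 := by linear_combination -h3
    rcases mul_eq_zero.1 h4 with h5 | h5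
    · exact absurd h5 hα0
    · exact sub_eq_zero.1 h5

end Main

/-- **S3010, the row `PSU_n(q)`, `q` even**, `(n, q) ≠ (3, 2), (4, 2)`. -/
theorem dead_psu : DeadS.{u} (fun K _ => ∃ (F : Type) (_ : Field F) (_ : Fintype F) (n q : ℕ),
    Fintype.card F = q ^ 2 ∧ Even q ∧ 3 ≤ n ∧ ¬ (n = 3 ∧ q = 2) ∧ ¬ (n = 4 ∧ q = 2) ∧ Nonempty (K ≃* PSU n F q)) := by
  rintro G _ _ V K h ⟨F, _, _, n, q, hF, hq, hn, h32, h42, ⟨e⟩⟩
  obtain ⟨κ, hf⟩ := exists_frame hF hq hn h32 h e
  exact false_of_psu hq hn h32 h42 h hf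

end Cfsg.Agent.H259.SK
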