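import Cfsg.Agent.H259.SK.Lin

/-!
# S3010, `PSU_n(q)`, `q` even: the semilinear elements (helper259)
-/

set_option autoImplicit false
set_option linter.unusedSectionVars false
set_option linter.unusedVariables false
set_option linter.unusedSimpArgs false

namespace Cfsg.Agent.H259.SK

open Matrix Cfsg
open Cfsg.Agent.LieClassical.HermBasic Cfsg.Agent.LieClassical.HermSiegel

section Out

variable {F : Type*} [Field F] [Fintype F] {q n : ℕ}

theorem ON.pair {a b : Fin n → F} (ha : hermForm n F q a a = 1) (hb : hermForm n F q b b = 1)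
    (h : hermForm n F q a b = 0) (h' : hermForm n F q b a = 0) : ON q ![a, b] := by
  intro i j
  fin_cases i <;> fin_cases j <;> simp [ha, hb, h, h']

theorem ON.single {a : Fin n → F} (ha : hermForm n F q a a = 1) : ON q ![a] := by
  intro i j
  fin_cases i; fin_cases j; simp [ha]

/-- an antilinear isometric involution commuting with `B` and `x` -/
structure Anti (hF : Fintype.card F = q ^ 2) (B x : SU n F q) (S : (Fin n → F) → (Fin n → F)) : Prop where
  semi : Semi q (conj hF) S
  sq : ∀ u, S (S u) = u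
  cB : ∀ u, S (act B u) = act B (S u)
  cx : ∀ u, S (act x u) = act x (S u)

/-- the involution `B S` -/
def TT (B : SU n F q) (S : (Fin n → F) → (Fin n → F)) (u : Fin n → F) : Fin n → F := act B (S u)

namespace Anti

variable {hF : Fintype.card F = q ^ 2} {B x : SU n F q} {S : (Fin n → F) → (Fin n → F)} {Λ : Set F}

theorem tsemi (hs : Anti hF B x S) : Semi q (conj hF) (TT B S) :=
  ⟨fun u v => by rw [TT, TT, TT, hs.semi.add, act_add], fun a v => by rw [TT, TT, hs.semi.smul, act_smul],
    fun u v => by rw [TT, TT, herm_act, hs.semi.herm]⟩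

theorem tsq (hs : Anti hF B x S) (h : XS B x Λ) (u : Fin n → F) : TT B S (TT B S u) = u := by
  rw [TT, TT, hs.cB, act_act h.hB, hs.sq]

theorem sEg (hs : Anti hF B x S) {l : F} {u : Fin n → F} (hu : u ∈ Eg x l) : S u ∈ Eg x (l ^ q) := by
  rw [mem_Eg, ← hs.cx, mem_Eg.1 hu, hs.semi.smul]
  rfl

theorem good_one (hs : Anti hF B x S) (h : XS B x Λ) : Good q S (Eg x 1) :=
  ⟨fun u hu => by have := hs.sEg hu; rwa [one_pow] at this, h.nondeg_one⟩

theorem good (hs : Anti hF B x S) (h : XS B x Λ) {l : F} (hl : l ∈ Λ) : Good q (TT B S) (Eg x l) :=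
  ⟨fun u hu => by
    have h1 := h.act_B hF (l := l ^ q) (by rw [pow_q_pow_q hF, mul_comm]; exact h.norm l hl) (hs.sEg hu)
    rwa [pow_q_pow_q hF] at h1, h.nondeg hF hl⟩

end Anti

theorem kill_out {hF : Fintype.card F = q ^ 2} {B x : SU n F q} {Λ : Set F} (h : XS B x Λ)
    {S : (Fin n → F) → (Fin n → F)} (hs : Anti hF B x S) {κ κ' : Type*} [Fintype κ] [DecidableEq κ] [Fintype κ']
    [DecidableEq κ'] (a : κ → (Fin n → F)) (l : κ → F) (hl : ∀ i, l i ∈ Λ) (ha : ∀ i, a i ∈ Eg x (l i)) (haon : ON q a)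
    (c : κ' → (Fin n → F)) (hc : ∀ i, c i ∈ Eg x 1) (hcon : ON q c)
    (γ : κ → F) (δ : κ' → F) (hγ : ∀ i, γ i * γ i ^ q = 1) (hδ : ∀ i, δ i * δ i ^ q = 1)
    (hp : (∏ i, γ i) * (∏ i, γ i) * (∏ i, δ i) = 1)
    (hns : (∃ i j, Sum.elim γ δ i ≠ Sum.elim γ δ j) ∨
      (∃ i, Sum.elim γ δ i ≠ 1 ∧ Fintype.card κ + Fintype.card κ + Fintype.card κ' < n))
    (σ : Equiv.Perm κ) (hσ : ∀ i, TT B S (a i) = a (σ i)) (hγσ : ∀ i, γ (σ i) = γ i)
    (τ : Equiv.Perm κ') (hτ : ∀ i, S (c i) = c (τ i)) (hδτ : ∀ i, δ (τ i) = δ i) : Kill B x S := by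
  refine kill_dbl hF h hs.semi a l hl ha haon c hc hcon γ δ hγ hδ hp hns
    (Equiv.sumCongr ((Equiv.sumComm κ κ).trans (Equiv.sumCongr σ σ)) τ) ?_ ?_
  · rintro ((i | i) | i)
    · show S (a i) = act B (a (σ i))
      rw [← hσ, TT, act_act h.hB]
    · show S (act B (a i)) = a (σ i)
      rw [← hσ, TT, hs.cB]
    · exact hτ i
  · rintro ((i | i) | i)
    · show γ i ^ q = γ (σ i) ^ q
      rw [hγσ]
    · show γ i ^ q = γ (σ i) ^ q
      rw [hγσ]
    · show δ i ^ q = δ (τ i) ^ q
      rw [hδτ]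

section Pieces

variable {hF : Fintype.card F = q ^ 2} {B x : SU n F q} {Λ : Set F} {S : (Fin n → F) → (Fin n → F)}

theorem norm_q (hF : Fintype.card F = q ^ 2) {β : F} (hβ : β * β ^ q = 1) : β ^ q * (β ^ q) ^ q = 1 := by
  rw [pow_q_pow_q hF, mul_comm]; exact hβ

theorem ne_q (h2 : (2 : F) = 0) {β : F} (hβ : β * β ^ q = 1) (hβ1 : β ≠ 1) : β ≠ β ^ q := by
  intro h1
  rw [← h1] at hβ
  exact hβ1 (eq_one_of_sq h2 hβ)

theorem ne_q2 {β : F} (hβ : β * β ^ q = 1) (hβ3 : β ^ 3 ≠ 1) : (β ^ q) ^ 2 ≠ β := by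
  intro h1
  apply hβ3
  calc β ^ 3 = β ^ 2 * β := by ring
    _ = β ^ 2 * (β ^ q) ^ 2 := by rw [h1]
    _ = (β * β ^ q) ^ 2 := by ring
    _ = 1 := by rw [hβ, one_pow]

/-- two fixed unit vectors -/
theorem kill_uu (h2 : (2 : F) = 0) (h : XS B x Λ) (hs : Anti hF B x S) {β : F} (hβ : β * β ^ q = 1) (hβ1 : β ≠ 1)
    {l m : F} (hl : l ∈ Λ) (hm : m ∈ Λ) {u v : Fin n → F} (hu : u ∈ Eg x l) (hv : v ∈ Eg x m) (hTu : TT B S u = u)
    (hTv : TT B S v = v) (huu : hermForm n F q u u = 1) (hvv : hermForm n F q v v = 1) (huv : hermForm n F q u v = 0) :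
    Kill B x S := by
  refine kill_out h hs ![u, v] ![l, m] ?_ ?_ (ON.pair huu hvv huv (herm_eq_zero_swap hF huv)) (Fin.elim0 : Fin 0 → _)
    (fun i => i.elim0) (fun i => i.elim0) ![β, β ^ q] (fun i => i.elim0) ?_ (fun i => i.elim0) ?_ ?_ (Equiv.refl _) ?_
    (fun i => rfl) (Equiv.refl _) (fun i => i.elim0) (fun i => i.elim0)
  · intro i; fin_cases i
    · exact hl
    · exact hm
  · intro i; fin_cases i
    · exact hu
    · exact hv
  · intro i; fin_cases i
    · exact hβ
    · exact norm_q hF hβ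
  · simp [hβ]
  · exact Or.inl ⟨Sum.inl 0, Sum.inl 1, ne_q h2 hβ hβ1⟩
  · intro i; fin_cases i
    · exact hTu
    · exact hTv

/-- a fixed unit vector and a plane -/
theorem kill_up (h : XS B x Λ) (hs : Anti hF B x S) {β : F} (hβ : β * β ^ q = 1) (hβ3 : β ^ 3 ≠ 1)
    {l m : F} (hl : l ∈ Λ) (hm : m ∈ Λ) {u p p' : Fin n → F} (hu : u ∈ Eg x l) (hp : p ∈ Eg x m) (hp' : p' ∈ Eg x m)
    (hTu : TT B S u = u) (hTp : TT B S p = p') (hTp' : TT B S p' = p) (huu : hermForm n F q u u = 1)
    (hpp : hermForm n F q p p = 1) (hpp' : hermForm n F q p' p' = 1) (h0 : hermForm n F q p p' = 0)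
    (hup : hermForm n F q u p = 0) (hup' : hermForm n F q u p' = 0) : Kill B x S := by
  have h0' := herm_eq_zero_swap hF h0
  have hpu := herm_eq_zero_swap hF hup
  have hpu' := herm_eq_zero_swap hF hup'
  refine kill_out h hs ![u, p, p'] ![l, m, m] ?_ ?_ ?_ (Fin.elim0 : Fin 0 → _)
    (fun i => i.elim0) (fun i => i.elim0) ![(β ^ q) ^ 2, β, β] (fun i => i.elim0) ?_ (fun i => i.elim0) ?_ ?_
    (Equiv.swap 1 2) ?_ ?_ (Equiv.refl _) (fun i => i.elim0) (fun i => i.elim0)
  · intro i; fin_cases i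
    · exact hl
    · exact hm
    · exact hm
  · intro i; fin_cases i
    · exact hu
    · exact hp
    · exact hp'
  · intro i j
    fin_cases i <;> fin_cases j <;> simp [huu, hpp, hpp', h0, h0', hup, hup', hpu, hpu']
  · intro i; fin_cases i
    · show (β ^ q) ^ 2 * ((β ^ q) ^ 2) ^ q = 1
      calc (β ^ q) ^ 2 * ((β ^ q) ^ 2) ^ q = (β ^ q * (β ^ q) ^ q) ^ 2 := by ring
        _ = 1 := by rw [norm_q hF hβ, one_pow]
    · exact hβ
    · exact hβ
  · simp only [Fin.prod_univ_three, Matrix.cons_val_zero, Matrix.cons_val_one, Matrix.cons_val_two, Matrix.head_cons,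
      Matrix.tail_cons, Fintype.prod_empty, Finset.univ_eq_empty, Finset.prod_empty]
    have e1 : (β ^ q) ^ 2 * β * β = 1 := by
      calc (β ^ q) ^ 2 * β * β = (β * β ^ q) ^ 2 := by ring
        _ = 1 := by rw [hβ, one_pow]
    show (β ^ q) ^ 2 * β * β * ((β ^ q) ^ 2 * β * β) * 1 = 1
    rw [e1]; ring
  · exact Or.inl ⟨Sum.inl 0, Sum.inl 1, ne_q2 hβ hβ3⟩
  · intro i; fin_cases i
    · exact hTu
    · exact hTp
    · exact hTp'
  · intro i; fin_cases i <;> rfl

/-- two planes -/
theorem kill_pp (h2 : (2 : F) = 0) (h : XS B x Λ) (hs : Anti hF B x S) {β : F} (hβ : β * β ^ q = 1) (hβ1 : β ≠ 1)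
    {l m : F} (hl : l ∈ Λ) (hm : m ∈ Λ) {p p' k k' : Fin n → F} (hp : p ∈ Eg x l) (hp' : p' ∈ Eg x l)
    (hk : k ∈ Eg x m) (hk' : k' ∈ Eg x m) (hTp : TT B S p = p') (hTp' : TT B S p' = p)
    (hTk : TT B S k = k') (hTk' : TT B S k' = k) (hpp : hermForm n F q p p = 1) (hpp' : hermForm n F q p' p' = 1)
    (h0 : hermForm n F q p p' = 0) (hkk : hermForm n F q k k = 1) (hkk' : hermForm n F q k' k' = 1)
    (h1 : hermForm n F q k k' = 0) (a1 : hermForm n F q p k = 0) (a2 : hermForm n F q p k' = 0)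
    (a3 : hermForm n F q p' k = 0) (a4 : hermForm n F q p' k' = 0) : Kill B x S := by
  have h0' := herm_eq_zero_swap hF h0
  have h1' := herm_eq_zero_swap hF h1
  have b1 := herm_eq_zero_swap hF a1
  have b2 := herm_eq_zero_swap hF a2
  have b3 := herm_eq_zero_swap hF a3
  have b4 := herm_eq_zero_swap hF a4
  refine kill_out h hs ![p, p', k, k'] ![l, l, m, m] ?_ ?_ ?_ (Fin.elim0 : Fin 0 → _)
    (fun i => i.elim0) (fun i => i.elim0) ![β, β, β ^ q, β ^ q] (fun i => i.elim0) ?_ (fun i => i.elim0) ?_ ?_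
    ((Equiv.swap 0 1).trans (Equiv.swap 2 3)) ?_ ?_ (Equiv.refl _) (fun i => i.elim0) (fun i => i.elim0)
  · intro i; fin_cases i
    · exact hl
    · exact hl
    · exact hm
    · exact hm
  · intro i; fin_cases i
    · exact hp
    · exact hp'
    · exact hk
    · exact hk'
  · intro i j
    fin_cases i <;> fin_cases j <;> simp [hpp, hpp', h0, h0', hkk, hkk', h1, h1', a1, a2, a3, a4, b1, b2, b3, b4]
  · intro i; fin_cases i
    · exact hβ
    · exact hβ
    · exact norm_q hF hβ
    · exact norm_q hF hβ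
  · rw [Fin.prod_univ_four]
    show β * β * β ^ q * β ^ q * (β * β * β ^ q * β ^ q) * 1 = 1
    linear_combination (β * β * β ^ q * β ^ q * β * β ^ q + β * β * β ^ q * β ^ q + β * β ^ q + 1) * hβ
  · exact Or.inl ⟨Sum.inl 0, Sum.inl 2, ne_q h2 hβ hβ1⟩
  · intro i; fin_cases i
    · exact hTp
    · exact hTp'
    · exact hTk
    · exact hTk'
  · intro i; fin_cases i <;> rfl

/-- **Two different eigenvalues** (`q ≥ 4`). -/
theorem kill_two (h2 : (2 : F) = 0) (h : XS B x Λ) (hs : Anti hF B x S) {β : F} (hβ : β * β ^ q = 1)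
    (hβ3 : β ^ 3 ≠ 1) {l m : F} (hl : l ∈ Λ) (hm : m ∈ Λ) (hlm : l ≠ m) : Kill B x S := by
  have hβ1 : β ≠ 1 := by rintro rfl; exact hβ3 (one_pow 3)
  have ho : ∀ a ∈ Eg x l, ∀ b ∈ Eg x m, hermForm n F q a b = 0 := fun a ha b hb =>
    orth_of_eigen hF (h.norm m hm) hlm ha hb
  have ho' : ∀ a ∈ Eg x m, ∀ b ∈ Eg x l, hermForm n F q a b = 0 := fun a ha b hb =>
    orth_of_eigen hF (h.norm l hl) hlm.symm ha hb
  rcases exists_unit_or_plane hF h2 hs.tsemi (hs.tsq h) (hs.good h hl) (h.nonempty l hl) with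
    ⟨u, hu, hTu, huu⟩ | ⟨p, hp, p', hp', hTp, hTp', hpp, hpp', h0, h0'⟩
  · rcases exists_unit_or_plane hF h2 hs.tsemi (hs.tsq h) (hs.good h hm) (h.nonempty m hm) with
      ⟨v, hv, hTv, hvv⟩ | ⟨k, hk, k', hk', hTk, hTk', hkk, hkk', h1, h1'⟩
    · exact kill_uu h2 h hs hβ hβ1 hl hm hu hv hTu hTv huu hvv (ho u hu v hv)
    · exact kill_up h hs hβ hβ3 hl hm hu hk hk' hTu hTk hTk' huu hkk hkk' h1 (ho u hu k hk) (ho u hu k' hk')
  · rcases exists_unit_or_plane hF h2 hs.tsemi (hs.tsq h) (hs.good h hm) (h.nonempty m hm) with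
      ⟨v, hv, hTv, hvv⟩ | ⟨k, hk, k', hk', hTk, hTk', hkk, hkk', h1, h1'⟩
    · exact kill_up h hs hβ hβ3 hm hl hv hp hp' hTv hTp hTp' hvv hpp hpp' h0 (ho' v hv p hp) (ho' v hv p' hp')
    · exact kill_pp h2 h hs hβ hβ1 hl hm hp hp' hk hk' hTp hTp' hTk hTk' hpp hpp' h0 hkk hkk' h1 (ho p hp k hk)
        (ho p hp k' hk') (ho p' hp' k hk) (ho p' hp' k' hk')

/-- the leftover: `W` is the orthogonal sum of three `S`-invariant planes without fixed unit vectors -/
def Special (q : ℕ) (S : (Fin n → F) → (Fin n → F)) : Prop :=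
  ∃ P P' : Fin 3 → (Fin n → F), ON q (Sum.elim P P') ∧ (∀ i, S (P i) = P' i) ∧ ∀ i, S (P' i) = P i

theorem ON.eq_zero {ι : Type*} [Fintype ι] [DecidableEq ι] {z : ι → (Fin n → F)} (hz : ON q z)
    (hc : Fintype.card ι = n) {u : Fin n → F} (hu : ∀ i, hermForm n F q u (z i) = 0) : u = 0 := by
  have h1 : Submodule.span F (Set.range z) = ⊤ := by
    apply hz.linInd.span_eq_top_of_card_eq_finrank'
    rw [Module.finrank_fintype_fun_eq_card, Fintype.card_fin, hc]
  have h2 : u ∈ Submodule.span F (Set.range z) := h1 ▸ Submodule.mem_top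
  obtain ⟨c, rfl⟩ := (Submodule.mem_span_range_iff_exists_fun F).1 h2
  apply Finset.sum_eq_zero
  intro i _
  rw [← herm_sum_z hz c i, hu, zero_smul]

/-- **One eigenvalue.** -/
theorem kill_one (h2 : (2 : F) = 0) {l : F} (h : XS B x {l}) (hs : Anti hF B x S) {β : F} (hβ : β * β ^ q = 1)
    (hβ1 : β ≠ 1) (hn : 3 ≤ n) (h3 : β ^ 3 = 1 → q = 2 ∧ n ≠ 3 ∧ n ≠ 4)
    (hr : q = 2 ∨ ∀ p ∈ Eg x l, ∀ p' ∈ Eg x l, hermForm n F q p p = 1 → hermForm n F q p' p' = 1 →
      hermForm n F q p p' ≠ 0) : Kill B x S ∨ (q = 2 ∧ n = 6 ∧ Special q S) := by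
  have hl : l ∈ ({l} : Set F) := rfl
  have hX := hs.good h hl
  have hY := hs.good_one h
  have hβq := ne_q h2 hβ hβ1
  have tu : ∀ {u v : Fin n → F}, u ∈ Eg x l → v ∈ Eg x l → TT B S u = u → TT B S v = v → hermForm n F q u u = 1 →
      hermForm n F q v v = 1 → hermForm n F q u v = 0 → Kill B x S := fun hu hv hTu hTv huu hvv huv =>
    kill_uu h2 h hs hβ hβ1 hl hl hu hv hTu hTv huu hvv huv
  have tup : ∀ {u p p' : Fin n → F}, u ∈ Eg x l → p ∈ Eg x l → p' ∈ Eg x l → TT B S u = u →
      hermForm n F q u u = 1 → TT B S p = p' → TT B S p' = p → hermForm n F q p p = 1 → hermForm n F q p' p' = 1 →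
      hermForm n F q p p' = 0 → hermForm n F q u p = 0 → hermForm n F q u p' = 0 → Kill B x S := by
    intro u p p' hu hp hp' hTu huu hTp hTp' hpp hpp' h0 hup hup'
    obtain ⟨u₁, hu₁, u₂, hu₂, hT₁, hT₂, h11, h22, h12⟩ :=
      exists_two_units hF h2 hs.tsemi hu hp hp' hTu huu hTp hTp' hpp hpp' h0 hup hup'
    exact tu hu₁ hu₂ hT₁ hT₂ h11 h22 h12
  rcases exists_unit_or_plane hF h2 hs.tsemi (hs.tsq h) hX (h.nonempty l hl) with
    ⟨u, hu, hTu, huu⟩ | ⟨p, hp, p', hp', hTp, hTp', hpp, hpp', h0, h0'⟩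
  · left
    have hon : ON q ![u] := ON.single huu
    have hX' : Good q (TT B S) (perp q (Eg x l) ![u]) := hX.perp hF hs.tsemi (hs.tsq h) hon
      (fun i => by fin_cases i; exact hu) (fun i => ⟨1, i, by rw [one_smul]; fin_cases i; exact hTu⟩)
    by_cases hb : perp q (Eg x l) ![u] = ⊥
    swap
    · rcases exists_unit_or_plane hF h2 hs.tsemi (hs.tsq h) hX' hb with
        ⟨v, hv, hTv, hvv⟩ | ⟨k, hk, k', hk', hTk, hTk', hkk, hkk', h1, h1'⟩
      · exact tu hu hv.1 hTu hTv huu hvv (herm_eq_zero_swap hF (hv.2 0))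
      · exact tup hu hk.1 hk'.1 hTu huu hTk hTk' hkk hkk' h1 (herm_eq_zero_swap hF (hk.2 0))
          (herm_eq_zero_swap hF (hk'.2 0))
    -- the eigenspace is `⟨u⟩`
    have hline : ∀ a ∈ Eg x l, a = hermForm n F q a u • u := by
      intro a ha
      have h4 : a - hermForm n F q a u • u ∈ perp q (Eg x l) ![u] := by
        refine ⟨(Eg x l).sub_mem ha ((Eg x l).smul_mem _ hu), fun i => ?_⟩
        fin_cases i
        show hermForm n F q (a - hermForm n F q a u • u) u = 0
        rw [herm_sub_left, herm_smul_left, huu, mul_one, sub_self]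
      rw [hb, Submodule.mem_bot] at h4
      exact sub_eq_zero.1 h4
    have hY0 : Eg x 1 ≠ ⊥ := by
      obtain ⟨w, hw0, hw⟩ := exists_orth hF (q := q) ![u, act B u] (by simp; omega)
      have hw1 : hermForm n F q w u = 0 := hw 0
      have hw2 : hermForm n F q w (act B u) = 0 := hw 1
      have hw3 : w ∈ Eg x 1 := by
        apply h.full
        intro m hm a ha
        obtain rfl : m = l := hm
        rw [hline a ha]
        refine ⟨by rw [herm_smul_right, hw1, mul_zero], by rw [act_smul, herm_smul_right, hw2, mul_zero]⟩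
      intro h5
      rw [h5, Submodule.mem_bot] at hw3
      exact hw0 hw3
    rcases exists_unit_or_plane hF h2 hs.semi hs.sq hY hY0 with
      ⟨s, hs', hSs, hss⟩ | ⟨k, hk, k', hk', hSk, hSk', hkk, hkk', h1, h1'⟩
    · refine kill_out h hs ![u] ![l] (fun i => by fin_cases i; exact hl) (fun i => by fin_cases i; exact hu) hon
        ![s] (fun i => by fin_cases i; exact hs') (ON.single hss) ![β] ![(β ^ q) ^ 2]
        (fun i => by fin_cases i; exact hβ) ?_ ?_ ?_ (Equiv.refl _) (fun i => by fin_cases i; exact hTu) (fun i => rfl)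
        (Equiv.refl _) (fun i => by fin_cases i; exact hSs) (fun i => rfl)
      · intro i; fin_cases i
        show (β ^ q) ^ 2 * ((β ^ q) ^ 2) ^ q = 1
        calc (β ^ q) ^ 2 * ((β ^ q) ^ 2) ^ q = (β ^ q * (β ^ q) ^ q) ^ 2 := by ring
          _ = 1 := by rw [norm_q hF hβ, one_pow]
      · simp only [Fin.prod_univ_one]
        show β * β * (β ^ q) ^ 2 = 1
        calc β * β * (β ^ q) ^ 2 = (β * β ^ q) ^ 2 := by ring
          _ = 1 := by rw [hβ, one_pow]
      · by_cases hb3 : β ^ 3 = 1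
        · obtain ⟨hq2, hn3, hn4⟩ := h3 hb3
          right
          refine ⟨Sum.inl 0, hβ1, ?_⟩
          simp only [Fintype.card_fin]
          omega
        · left
          exact ⟨Sum.inr 0, Sum.inl 0, ne_q2 hβ hb3⟩
    · refine kill_out h hs ![u] ![l] (fun i => by fin_cases i; exact hl) (fun i => by fin_cases i; exact hu) hon
        ![k, k'] (fun i => by fin_cases i; exacts [hk, hk']) (ON.pair hkk hkk' h1 h1') ![β] ![β ^ q, β ^ q]
        (fun i => by fin_cases i; exact hβ) (fun i => by fin_cases i; exacts [norm_q hF hβ, norm_q hF hβ]) ?_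
        (Or.inl ⟨Sum.inl 0, Sum.inr 0, hβq⟩) (Equiv.refl _) (fun i => by fin_cases i; exact hTu) (fun i => rfl)
        (Equiv.swap 0 1) (fun i => by fin_cases i; exacts [hSk, hSk']) (fun i => by fin_cases i <;> rfl)
      simp only [Fin.prod_univ_one, Fin.prod_univ_two]
      show β * β * (β ^ q * β ^ q) = 1
      linear_combination (β * β ^ q + 1) * hβ
  · rcases hr with hq2 | hr
    swap
    · exact absurd h0 (hr p hp p' hp' hpp hpp')
    have hβ3 : β ^ 3 = 1 := by
      have := hβ
      rw [hq2] at this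
      rw [← this]; ring
    obtain ⟨-, hn3, hn4⟩ := h3 hβ3
    have hon : ON q ![p, p'] := ON.pair hpp hpp' h0 h0'
    have hX' : Good q (TT B S) (perp q (Eg x l) ![p, p']) := hX.perp hF hs.tsemi (hs.tsq h) hon
      (fun i => by fin_cases i; exacts [hp, hp'])
      (fun i => by fin_cases i; exacts [⟨1, 1, by rw [one_smul]; exact hTp⟩, ⟨1, 0, by rw [one_smul]; exact hTp'⟩])
    by_cases hb : perp q (Eg x l) ![p, p'] = ⊥
    swap
    · left
      rcases exists_unit_or_plane hF h2 hs.tsemi (hs.tsq h) hX' hb with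
        ⟨v, hv, hTv, hvv⟩ | ⟨k, hk, k', hk', hTk, hTk', hkk, hkk', h1, h1'⟩
      · exact tup hv.1 hp hp' hTv hvv hTp hTp' hpp hpp' h0 (hv.2 0) (hv.2 1)
      · exact kill_pp h2 h hs hβ hβ1 hl hl hp hp' hk.1 hk'.1 hTp hTp' hTk hTk' hpp hpp' h0 hkk hkk' h1
          (herm_eq_zero_swap hF (hk.2 0)) (herm_eq_zero_swap hF (hk'.2 0)) (herm_eq_zero_swap hF (hk.2 1))
          (herm_eq_zero_swap hF (hk'.2 1))
    -- the eigenspace is `⟨p, p'⟩`
    have hline : ∀ a ∈ Eg x l, a = hermForm n F q a p • p + hermForm n F q a p' • p' := by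
      intro a ha
      have h4 : a - (hermForm n F q a p • p + hermForm n F q a p' • p') ∈ perp q (Eg x l) ![p, p'] := by
        refine ⟨(Eg x l).sub_mem ha ((Eg x l).add_mem ((Eg x l).smul_mem _ hp) ((Eg x l).smul_mem _ hp')), fun i => ?_⟩
        fin_cases i
        · show hermForm n F q (a - (hermForm n F q a p • p + hermForm n F q a p' • p')) p = 0
          rw [herm_sub_left, herm_add_left, herm_smul_left, herm_smul_left, hpp, h0', mul_one, mul_zero, add_zero,
            sub_self]
        · show hermForm n F q (a - (hermForm n F q a p • p + hermForm n F q a p' • p')) p' = 0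
          rw [herm_sub_left, herm_add_left, herm_smul_left, herm_smul_left, hpp', h0, mul_one, mul_zero, zero_add,
            sub_self]
      rw [hb, Submodule.mem_bot] at h4
      exact sub_eq_zero.1 h4
    -- orthogonal to `p, p', Bp, Bp'` means fixed
    have hfull : ∀ w : Fin n → F, hermForm n F q w p = 0 → hermForm n F q w p' = 0 →
        hermForm n F q w (act B p) = 0 → hermForm n F q w (act B p') = 0 → w ∈ Eg x 1 := by
      intro w w1 w2 w3 w4
      apply h.full
      intro m hm a ha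
      obtain rfl : m = l := hm
      rw [hline a ha]
      refine ⟨by rw [herm_add_right hF, herm_smul_right, herm_smul_right, w1, w2, mul_zero, mul_zero, add_zero],
        by rw [act_add, act_smul, act_smul, herm_add_right hF, herm_smul_right, herm_smul_right, w3, w4, mul_zero,
          mul_zero, add_zero]⟩
    have hpairs : Pairs B ![p, p'] := ⟨hon, fun i j => h.orthB hF hl hl (by fin_cases i; exacts [hp, hp'])
      (by fin_cases j; exacts [hp, hp'])⟩
    have hdon := hpairs.dbl_on hF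
    have hn4' : 4 ≤ n := by
      have := hdon.card_le
      simpa using this
    have hY0 : Eg x 1 ≠ ⊥ := by
      obtain ⟨w, hw0, hw⟩ := exists_orth hF (q := q) (dbl B ![p, p']) (by simp; omega)
      have hw3 : w ∈ Eg x 1 := hfull w (hw (Sum.inl 0)) (hw (Sum.inl 1)) (hw (Sum.inr 0)) (hw (Sum.inr 1))
      intro h5
      rw [h5, Submodule.mem_bot] at hw3
      exact hw0 hw3
    have hb6 : β ^ q = β ^ 2 := by rw [hq2]
    rcases exists_unit_or_plane hF h2 hs.semi hs.sq hY hY0 with
      ⟨s, hs', hSs, hss⟩ | ⟨k, hk, k', hk', hSk, hSk', hkk, hkk', h1, h1'⟩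
    · left
      refine kill_out h hs ![p, p'] ![l, l] (fun i => by fin_cases i; exacts [hl, hl])
        (fun i => by fin_cases i; exacts [hp, hp']) hon
        ![s] (fun i => by fin_cases i; exact hs') (ON.single hss) ![β, β] ![β ^ q]
        (fun i => by fin_cases i; exacts [hβ, hβ]) (fun i => by fin_cases i; exact norm_q hF hβ) ?_
        (Or.inl ⟨Sum.inl 0, Sum.inr 0, hβq⟩) (Equiv.swap 0 1) (fun i => by fin_cases i; exacts [hTp, hTp'])
        (fun i => by fin_cases i <;> rfl) (Equiv.refl _) (fun i => by fin_cases i; exact hSs) (fun i => rfl)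
      simp only [Fin.prod_univ_one, Fin.prod_univ_two]
      show β * β * (β * β) * β ^ q = 1
      rw [hb6]
      linear_combination (β ^ 3 + 1) * hβ3
    · by_cases hb' : perp q (Eg x 1) ![k, k'] = ⊥
      swap
      · left
        obtain ⟨w, hw, hw0⟩ := (Submodule.ne_bot_iff _).1 hb'
        have honk : ON q ![k, k'] := ON.pair hkk hkk' h1 h1'
        have hk1 : ∀ i, ![k, k'] i ∈ Eg x 1 := fun i => by fin_cases i; exacts [hk, hk']
        have hBk : ∀ i, act B (![k, k'] i) = ![k, k'] i := fun i => h.one _ (hk1 i)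
        have hpE : ∀ i, ![p, p'] i ∈ Eg x l := fun i => by fin_cases i; exacts [hp, hp']
        have o1 : ∀ i j, hermForm n F q (dbl B ![p, p'] i) (![k, k'] j) = 0 := by
          rintro (i | i) j
          · exact h.orth_one hF hl (hpE i) (hk1 j)
          · have h6 := herm_act B (![p, p'] i) (![k, k'] j)
            rw [hBk] at h6
            exact h6.trans (h.orth_one hF hl (hpE i) (hk1 j))
        have h6on : ON q (Sum.elim (dbl B ![p, p']) ![k, k']) :=
          sum_elim_on hdon honk o1 (fun i j => herm_eq_zero_swap hF (o1 i j))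
        have h6n : 6 < n := by
          have h7 := h6on.card_le
          simp only [Fintype.card_sum, Fintype.card_fin] at h7
          rcases Nat.lt_or_eq_of_le h7 with h8 | h8
          · omega
          · exfalso
            apply hw0
            apply h6on.eq_zero (by simp only [Fintype.card_sum, Fintype.card_fin]; exact h8)
            rintro ((i | i) | i)
            · exact herm_eq_zero_swap hF (h.orth_one hF hl (hpE i) hw.1)
            · have h9 := herm_act B w (![p, p'] i)
              rw [h.one w hw.1] at h9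
              exact h9.trans (herm_eq_zero_swap hF (h.orth_one hF hl (hpE i) hw.1))
            · exact hw.2 i
        refine kill_out h hs ![p, p'] ![l, l] (fun i => by fin_cases i; exacts [hl, hl])
          (fun i => by fin_cases i; exacts [hp, hp']) hon ![k, k'] hk1 honk ![β, β] ![β, β]
          (fun i => by fin_cases i; exacts [hβ, hβ]) (fun i => by fin_cases i; exacts [hβ, hβ]) ?_
          (Or.inr ⟨Sum.inl 0, hβ1, by simp only [Fintype.card_fin]; omega⟩) (Equiv.swap 0 1)
          (fun i => by fin_cases i; exacts [hTp, hTp']) (fun i => by fin_cases i <;> rfl) (Equiv.swap 0 1)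
          (fun i => by fin_cases i; exacts [hSk, hSk']) (fun i => by fin_cases i <;> rfl)
        simp only [Fin.prod_univ_two]
        show β * β * (β * β) * (β * β) = 1
        linear_combination (β ^ 3 + 1) * hβ3
      · right
        -- the special case
        have honk : ON q ![k, k'] := ON.pair hkk hkk' h1 h1'
        have hk1 : ∀ i, ![k, k'] i ∈ Eg x 1 := fun i => by fin_cases i; exacts [hk, hk']
        have hBk : ∀ i, act B (![k, k'] i) = ![k, k'] i := fun i => h.one _ (hk1 i)
        have hpE : ∀ i, ![p, p'] i ∈ Eg x l := fun i => by fin_cases i; exacts [hp, hp']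
        have o1 : ∀ i j, hermForm n F q (dbl B ![p, p'] i) (![k, k'] j) = 0 := by
          rintro (i | i) j
          · exact h.orth_one hF hl (hpE i) (hk1 j)
          · have h6 := herm_act B (![p, p'] i) (![k, k'] j)
            rw [hBk] at h6
            exact h6.trans (h.orth_one hF hl (hpE i) (hk1 j))
        have h6on : ON q (Sum.elim (dbl B ![p, p']) ![k, k']) :=
          sum_elim_on hdon honk o1 (fun i j => herm_eq_zero_swap hF (o1 i j))
        have h6n : n = 6 := by
          have h7 := h6on.card_le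
          simp only [Fintype.card_sum, Fintype.card_fin] at h7
          by_contra hne
          obtain ⟨w, hw0, hw⟩ := exists_orth hF (q := q) (Sum.elim (dbl B ![p, p']) ![k, k'])
            (by simp only [Fintype.card_sum, Fintype.card_fin]; omega)
          apply hw0
          have hw1 : w ∈ Eg x 1 := hfull w (hw (Sum.inl (Sum.inl 0))) (hw (Sum.inl (Sum.inl 1)))
            (hw (Sum.inl (Sum.inr 0))) (hw (Sum.inl (Sum.inr 1)))
          have hw2 : w ∈ perp q (Eg x 1) ![k, k'] := ⟨hw1, fun i => hw (Sum.inr i)⟩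
          rwa [hb', Submodule.mem_bot] at hw2
        refine ⟨hq2, h6n, ![p, p', k], ![act B p', act B p, k'], ?_, ?_, ?_⟩
        · have g1 : hermForm n F q p (act B p) = 0 := h.orthB hF hl hl hp hp
          have g2 : hermForm n F q p (act B p') = 0 := h.orthB hF hl hl hp hp'
          have g3 : hermForm n F q p' (act B p) = 0 := h.orthB hF hl hl hp' hp
          have g4 : hermForm n F q p' (act B p') = 0 := h.orthB hF hl hl hp' hp'
          have g1' := herm_eq_zero_swap hF g1
          have g2' := herm_eq_zero_swap hF g2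
          have g3' := herm_eq_zero_swap hF g3
          have g4' := herm_eq_zero_swap hF g4
          have k1 : hermForm n F q p k = 0 := o1 (Sum.inl 0) 0
          have k2 : hermForm n F q p k' = 0 := o1 (Sum.inl 0) 1
          have k3 : hermForm n F q p' k = 0 := o1 (Sum.inl 1) 0
          have k4 : hermForm n F q p' k' = 0 := o1 (Sum.inl 1) 1
          have k5 : hermForm n F q (act B p) k = 0 := o1 (Sum.inr 0) 0
          have k6 : hermForm n F q (act B p) k' = 0 := o1 (Sum.inr 0) 1
          have k7 : hermForm n F q (act B p') k = 0 := o1 (Sum.inr 1) 0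
          have k8 : hermForm n F q (act B p') k' = 0 := o1 (Sum.inr 1) 1
          have k1' := herm_eq_zero_swap hF k1
          have k2' := herm_eq_zero_swap hF k2
          have k3' := herm_eq_zero_swap hF k3
          have k4' := herm_eq_zero_swap hF k4
          have k5' := herm_eq_zero_swap hF k5
          have k6' := herm_eq_zero_swap hF k6
          have k7' := herm_eq_zero_swap hF k7
          have k8' := herm_eq_zero_swap hF k8
          rintro (i | i) (j | j) <;> fin_cases i <;> fin_cases j <;>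
            simp [hpp, hpp', h0, h0', hkk, hkk', h1, h1', herm_act, g1, g2, g3, g4, g1', g2', g3', g4', k1, k2, k3, k4,
              k5, k6, k7, k8, k1', k2', k3', k4', k5', k6', k7', k8']
        · intro i
          fin_cases i
          · show S p = act B p'
            rw [← hTp, TT, act_act h.hB]
          · show S p' = act B p
            rw [← hTp', TT, act_act h.hB]
          · exact hSk
        · intro i
          fin_cases i
          · show S (act B p') = p
            rw [hs.cB]; exact hTp'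
          · show S (act B p) = p'
            rw [hs.cB]; exact hTp
          · exact hSk'

end Pieces

end Out

end Cfsg.Agent.H259.SK
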