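import Cfsg.Agent.H259.SK.Tor
import Cfsg.Agent.H277.Unf.PsuEven

/-!
# Orthonormal pairs for linear and semilinear involutions in characteristic two (helper259)
-/

set_option autoImplicit false
set_option linter.unusedSectionVars false
set_option linter.unusedVariables false

namespace Cfsg.Agent.H259.SK

open Matrix Cfsg
open Cfsg.Agent.LieClassical.HermBasic Cfsg.Agent.LieClassical.HermSiegel

section Char2

variable {F : Type*} [Field F] [Fintype F] {q n : ℕ}

theorem add_self_F (h2 : (2 : F) = 0) (a : F) : a + a = 0 := by rw [← two_mul, h2, zero_mul]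

theorem add_self_W (h2 : (2 : F) = 0) (u : Fin n → F) : u + u = 0 := by
  funext i; exact add_self_F h2 _

theorem eq_of_add_F (h2 : (2 : F) = 0) {a b : F} (h : a + b = 0) : a = b := by
  linear_combination h - b * h2

theorem eq_of_add_W (h2 : (2 : F) = 0) {u v : Fin n → F} (h : u + v = 0) : u = v := by
  funext i; exact eq_of_add_F h2 (congrFun h i)

theorem eq_one_of_sq (h2 : (2 : F) = 0) {c : F} (h : c * c = 1) : c = 1 := by
  have h1 : (c - 1) * (c - 1) = 0 := by linear_combination h - (c - 1) * h2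
  exact sub_eq_zero.1 (mul_self_eq_zero.1 h1)

/-- elements of the fixed field are squares of elements of the fixed field -/
theorem exists_sqrt (hF : Fintype.card F = q ^ 2) (h2 : (2 : F) = 0) {a : F} (ha : a ^ q = a) :
    ∃ b : F, b * b = a ∧ b ^ q = b := by
  have hinj : Function.Injective (fun b : F => b * b) := by
    intro b c hbc
    have h1 : (b - c) * (b - c) = 0 := by
      have : b * b = c * c := hbc
      linear_combination this + (c * c - b * c) * h2
    exact sub_eq_zero.1 (mul_self_eq_zero.1 h1)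
  obtain ⟨b, hb⟩ := Finite.surjective_of_injective hinj a
  have hb' : b * b = a := hb
  refine ⟨b, hb', hinj ?_⟩
  show b ^ q * b ^ q = b * b
  rw [← mul_pow, hb', ha]

/-- a nondegenerate sesquilinear form with all `h(a, N a) = 0` vanishes: polarisation -/
theorem polar {h : (Fin n → F) → (Fin n → F) → F} (hF : Fintype.card F = q ^ 2) (X : Submodule F (Fin n → F))
    (hl : ∀ u u' v, h (u + u') v = h u v + h u' v) (hr : ∀ u v v', h u (v + v') = h u v + h u v')
    (hsl : ∀ (c : F) u v, h (c • u) v = c * h u v) (hsr : ∀ (c : F) u v, h u (c • v) = c ^ q * h u v)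
    (h0 : ∀ u ∈ X, h u u = 0) {a b : Fin n → F} (ha : a ∈ X) (hb : b ∈ X) : h a b = 0 := by
  obtain ⟨c, hc⟩ := exists_not_fixed hF
  have h1 := h0 _ (X.add_mem ha hb)
  have h3 := h0 _ (X.add_mem (X.smul_mem c ha) hb)
  rw [hl, hr, hr, h0 a ha, h0 b hb] at h1
  rw [hl, hr, hr, h0 _ (X.smul_mem c ha), h0 b hb, hsl, hsr] at h3
  have h4 : (c ^ q - c) * h a b = 0 := by linear_combination c ^ q * h1 - h3
  rcases mul_eq_zero.1 h4 with h5 | h5
  · exact absurd (sub_eq_zero.1 h5) hc
  · exact h5

/-- **Swap.** A linear isometric involution `S` with `h(Sa + a, a) ≠ 0` swaps two orthonormal vectors of `⟨a, Sa⟩`. -/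
theorem exists_swap (hF : Fintype.card F = q ^ 2) (h2 : (2 : F) = 0) {S : (Fin n → F) → (Fin n → F)}
    (hS : Semi q (1 : F ≃+* F) S) (hi : ∀ v, S (S v) = v) {a : Fin n → F}
    (ha : hermForm n F q (S a + a) a ≠ 0) :
    ∃ s t : F, hermForm n F q (s • a + t • S a) (s • a + t • S a) = 1 ∧
      hermForm n F q (s • a + t • S a) (S (s • a + t • S a)) = 0 := by
  have hsm : ∀ (c : F) v, S (c • v) = c • S v := fun c v => hS.smul c v
  have hh : ∀ u v, hermForm n F q (S u) (S v) = hermForm n F q u v := fun u v => hS.herm u v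
  set d := hermForm n F q (S a + a) a with hd
  have hsw : hermForm n F q (S a) a = hermForm n F q a (S a) := by
    have := hh a (S a)
    rw [hi] at this
    exact this
  have hdq : d ^ q = d := by
    rw [hd, ← herm_swap hF, herm_add_right hF, herm_add_left, hsw]
  obtain ⟨ν, hν, hν0⟩ := exists_norm_eq_ne hF (c := d⁻¹) (by rw [inv_pow, hdq]) (inv_ne_zero ha)
  set b := ν • a with hb
  set c := S b + b with hc
  have hcb : hermForm n F q c b = 1 := by
    rw [hc, hb, hsm, ← smul_add, herm_smul_left, herm_smul_right, ← hd]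
    have hdd := mul_inv_cancel₀ ha
    linear_combination d * hν0 + hdd
  have hbc : hermForm n F q b c = 1 := by rw [herm_swap hF c b, hcb, one_pow]
  have hSc : S c = c := by
    rw [hc, hS.add, hi, add_comm]
  have hcc : hermForm n F q c c = 0 := by
    have h1 : hermForm n F q c (S b + b) = 0 := by
      rw [herm_add_right hF, hcb]
      have : hermForm n F q c (S b) = hermForm n F q c b := by
        rw [← hh c b, hSc]
      rw [this, hcb]
      exact add_self_F h2 1
    exact h1
  obtain ⟨l, hl⟩ := exists_trace_eq hF (c := 1 + hermForm n F q b b) (by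
    rw [add_pow_q hF, one_pow, herm_self_pow hF])
  have key : ∀ z : Fin n → F, z = b + l • c → hermForm n F q z z = 1 ∧ hermForm n F q z (S z) = 0 := by
    rintro z rfl
    have h3 : hermForm n F q (b + l • c) (b + l • c) = 1 := by
      simp only [herm_add_left, herm_add_right hF, herm_smul_left, herm_smul_right, hbc, hcb, hcc]
      linear_combination hl + (hermForm n F q b b) * h2
    refine ⟨h3, ?_⟩
    have h4 : S (b + l • c) = (b + l • c) + c := by
      rw [hS.add, hsm l c, hSc, hc]
      have := add_self_W h2 b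
      calc S b + l • (S b + b) = S b + l • (S b + b) + (b + b) := by rw [this, add_zero]
        _ = _ := by abel
    rw [h4, herm_add_right hF, h3]
    simp only [herm_add_left, herm_smul_left, hbc, hcc]
    linear_combination h2
  refine ⟨ν + l * ν, l * ν, ?_⟩
  have e : (ν + l * ν) • a + (l * ν) • S a = b + l • c := by
    rw [hc, hb, hsm]
    simp only [add_smul, smul_add, smul_smul]
    abel
  rw [e]
  exact key _ rfl

/-! ### antilinear involutions on nondegenerate subspaces -/

/-- `X` is `S`-invariant and nondegenerate -/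
structure Good (q : ℕ) (S : (Fin n → F) → (Fin n → F)) (X : Submodule F (Fin n → F)) : Prop where
  inv : ∀ x ∈ X, S x ∈ X
  nondeg : ∀ x ∈ X, x ≠ 0 → ∃ y ∈ X, hermForm n F q x y ≠ 0

/-- the orthogonal complement in `X` of a family -/
def perp (q : ℕ) (X : Submodule F (Fin n → F)) {ι : Type*} (z : ι → (Fin n → F)) : Submodule F (Fin n → F) where
  carrier := {x | x ∈ X ∧ ∀ i, hermForm n F q x (z i) = 0}
  zero_mem' := ⟨X.zero_mem, fun i => herm_zero_left _⟩
  add_mem' := fun {a b} ha hb => ⟨X.add_mem ha.1 hb.1, fun i => by rw [herm_add_left, ha.2, hb.2, add_zero]⟩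
  smul_mem' := fun c a ha => ⟨X.smul_mem c ha.1, fun i => by rw [herm_smul_left, ha.2, mul_zero]⟩

theorem mem_perp {X : Submodule F (Fin n → F)} {ι : Type*} {z : ι → (Fin n → F)} {x : Fin n → F} :
    x ∈ perp q X z ↔ x ∈ X ∧ ∀ i, hermForm n F q x (z i) = 0 := Iff.rfl

theorem Good.perp (hF : Fintype.card F = q ^ 2) {ρ : F ≃+* F} {S : (Fin n → F) → (Fin n → F)}
    (hS : Semi q ρ S) (hi : ∀ v, S (S v) = v) {X : Submodule F (Fin n → F)} (h : Good q S X)
    {ι : Type*} [Fintype ι] [DecidableEq ι] {z : ι → (Fin n → F)} (hz : ON q z) (hX : ∀ i, z i ∈ X)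
    (hp : ∀ i, ∃ (c : F) (j : ι), S (z i) = c • z j) : Good q S (perp q X z) := by
  constructor
  · rintro x ⟨hx, hx0⟩
    refine ⟨h.inv x hx, fun i => ?_⟩
    obtain ⟨c, j, hj⟩ := hp i
    have h1 := hS.herm x (S (z i))
    rw [hi, hj, herm_smul_right, hx0, mul_zero, map_zero] at h1
    exact h1
  · rintro x ⟨hx, hx0⟩ hne
    obtain ⟨y, hy, hxy⟩ := h.nondeg x hx hne
    refine ⟨y - ∑ i, hermForm n F q y (z i) • z i, ⟨X.sub_mem hy (X.sum_mem fun i _ => X.smul_mem _ (hX i)), ?_⟩, ?_⟩
    · intro i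
      rw [herm_sub_left, herm_sum_z hz, sub_self]
    · rw [herm_sub_right hF, herm_sum_right hF, Finset.sum_eq_zero, sub_zero]
      · exact hxy
      · intro i _
        rw [herm_smul_right, hx0, mul_zero]

/-- the whole space -/
theorem Good.top (hF : Fintype.card F = q ^ 2) (S : (Fin n → F) → (Fin n → F)) : Good q S ⊤ :=
  ⟨fun _ _ => Submodule.mem_top, fun x _ hx => by
    obtain ⟨y, hy⟩ := exists_herm_ne_zero hF hx
    exact ⟨y, Submodule.mem_top, hy⟩⟩

/-- **Plane lemma.** An antilinear isometric involution on a nonzero nondegenerate space has a fixed unit vector or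
swaps two orthonormal vectors. -/
theorem exists_unit_or_plane (hF : Fintype.card F = q ^ 2) (h2 : (2 : F) = 0) {T : (Fin n → F) → (Fin n → F)}
    (hT : Semi q (conj hF) T) (hi : ∀ v, T (T v) = v) {X : Submodule F (Fin n → F)} (h : Good q T X) (hX : X ≠ ⊥) :
    (∃ u ∈ X, T u = u ∧ hermForm n F q u u = 1) ∨
    (∃ p ∈ X, ∃ p' ∈ X, T p = p' ∧ T p' = p ∧ hermForm n F q p p = 1 ∧ hermForm n F q p' p' = 1 ∧
      hermForm n F q p p' = 0 ∧ hermForm n F q p' p = 0) := by
  have hsm : ∀ (c : F) v, T (c • v) = c ^ q • T v := fun c v => hT.smul c v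
  have hh : ∀ u v, hermForm n F q (T u) (T v) = hermForm n F q u v ^ q := fun u v => hT.herm u v
  -- a fixed vector of nonzero norm gives a fixed unit vector
  have unit : ∀ g ∈ X, T g = g → hermForm n F q g g ≠ 0 → ∃ u ∈ X, T u = u ∧ hermForm n F q u u = 1 := by
    intro g hg hTg hgg
    obtain ⟨b, hb, hbq⟩ := exists_sqrt hF h2 (a := (hermForm n F q g g)⁻¹) (by rw [inv_pow, herm_self_pow hF])
    refine ⟨b • g, X.smul_mem _ hg, by rw [hsm, hTg, hbq], ?_⟩
    rw [herm_smul_left, herm_smul_right, hbq, ← mul_assoc, hb, inv_mul_cancel₀ hgg]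
  -- a nonzero fixed vector
  obtain ⟨g, hg, hg0, hTg⟩ : ∃ g ∈ X, g ≠ 0 ∧ T g = g := by
    obtain ⟨x, hx, hx0⟩ := (Submodule.ne_bot_iff _).1 hX
    by_cases h0 : T x + x = 0
    · exact ⟨x, hx, hx0, eq_of_add_W h2 h0⟩
    · exact ⟨T x + x, X.add_mem (h.inv x hx) hx, h0, by rw [hT.add, hi, add_comm]⟩
  by_cases hgg : hermForm n F q g g = 0
  swap
  · exact Or.inl (unit g hg hTg hgg)
  obtain ⟨y, hy, hgy⟩ := h.nondeg g hg hg0
  have hyg : hermForm n F q y g ≠ 0 := fun h0 => hgy (herm_eq_zero_swap hF h0)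
  obtain ⟨l, hl⟩ := exists_trace_eq hF (c := (1 : F)) (one_pow q)
  set w := (l * (hermForm n F q y g)⁻¹) • y with hw
  have hwX : w ∈ X := X.smul_mem _ hy
  have hwg : hermForm n F q w g = l := by
    rw [hw, herm_smul_left, mul_assoc, inv_mul_cancel₀ hyg, mul_one]
  set f := w + T w with hf
  have hfX : f ∈ X := X.add_mem hwX (h.inv w hwX)
  have hTf : T f = f := by rw [hf, hT.add, hi, add_comm]
  have hfg : hermForm n F q f g = 1 := by
    have h1 : hermForm n F q (T w) g = l ^ q := by
      have := hh w g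
      rw [hTg, hwg] at this
      exact this
    rw [hf, herm_add_left, hwg, h1, hl]
  have hgf : hermForm n F q g f = 1 := by rw [herm_swap hF f g, hfg, one_pow]
  by_cases hff : hermForm n F q f f = 0
  swap
  · exact Or.inl (unit f hfX hTf hff)
  right
  have hlq : l ^ q + l = 1 := by rw [add_comm, hl]
  have hq2 : (l ^ q) ^ q = l := pow_q_pow_q hF l
  refine ⟨g + l • f, X.add_mem hg (X.smul_mem _ hfX), g + (l ^ q) • f, X.add_mem hg (X.smul_mem _ hfX), ?_, ?_, ?_, ?_,
    ?_, ?_⟩
  · rw [hT.add, hsm, hTg, hTf]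
  · rw [hT.add, hsm, hTg, hTf, hq2]
  · simp only [herm_add_left, herm_add_right hF, herm_smul_left, herm_smul_right, hgg, hff, hfg, hgf]
    linear_combination hlq
  · simp only [herm_add_left, herm_add_right hF, herm_smul_left, herm_smul_right, hgg, hff, hfg, hgf, hq2]
    linear_combination hl
  · simp only [herm_add_left, herm_add_right hF, herm_smul_left, herm_smul_right, hgg, hff, hfg, hgf, hq2]
    linear_combination l * h2
  · simp only [herm_add_left, herm_add_right hF, herm_smul_left, herm_smul_right, hgg, hff, hfg, hgf, hq2]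
    linear_combination (l ^ q) * h2

/-- a fixed unit vector and an orthogonal swapped pair give two orthonormal fixed vectors -/
theorem exists_two_units (hF : Fintype.card F = q ^ 2) (h2 : (2 : F) = 0) {T : (Fin n → F) → (Fin n → F)}
    (hT : Semi q (conj hF) T) {X : Submodule F (Fin n → F)} {u p p' : Fin n → F} (hu : u ∈ X) (hp : p ∈ X)
    (hp' : p' ∈ X) (hTu : T u = u) (huu : hermForm n F q u u = 1) (hTp : T p = p') (hTp' : T p' = p)
    (hpp : hermForm n F q p p = 1) (hpp' : hermForm n F q p' p' = 1) (h0 : hermForm n F q p p' = 0)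
    (hup : hermForm n F q u p = 0) (hup' : hermForm n F q u p' = 0) :
    ∃ u₁ ∈ X, ∃ u₂ ∈ X, T u₁ = u₁ ∧ T u₂ = u₂ ∧ hermForm n F q u₁ u₁ = 1 ∧ hermForm n F q u₂ u₂ = 1 ∧
      hermForm n F q u₁ u₂ = 0 := by
  have hsm : ∀ (c : F) v, T (c • v) = c ^ q • T v := fun c v => hT.smul c v
  obtain ⟨l, hl⟩ := exists_trace_eq hF (c := (1 : F)) (one_pow q)
  have hq2 : (l ^ q) ^ q = l := pow_q_pow_q hF l
  have h0' : hermForm n F q p' p = 0 := by rw [herm_swap hF p p', h0, zero_pow_q hF]
  have hpu : hermForm n F q p u = 0 := by rw [herm_swap hF u p, hup, zero_pow_q hF]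
  have hpu' : hermForm n F q p' u = 0 := by rw [herm_swap hF u p', hup', zero_pow_q hF]
  refine ⟨u + (l ^ q • p + l • p'), X.add_mem hu (X.add_mem (X.smul_mem _ hp) (X.smul_mem _ hp')), u + (p + p'),
    X.add_mem hu (X.add_mem hp hp'), ?_, ?_, ?_, ?_, ?_⟩
  · rw [hT.add, hT.add, hsm, hsm, hTu, hTp, hTp', hq2, add_comm (l • p')]
  · rw [hT.add, hT.add, hTu, hTp, hTp', add_comm p']
  · simp only [herm_add_left, herm_add_right hF, herm_smul_left, herm_smul_right, huu, hpp, hpp', h0, h0', hup, hup', hpu,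
      hpu', hq2]
    linear_combination (l * l ^ q) * h2
  · simp only [herm_add_left, herm_add_right hF, herm_smul_left, herm_smul_right, huu, hpp, hpp', h0, h0', hup, hup', hpu,
      hpu', hq2]
    linear_combination h2
  · simp only [herm_add_left, herm_add_right hF, herm_smul_left, herm_smul_right, huu, hpp, hpp', h0, h0', hup, hup', hpu,
      hpu', hq2]
    linear_combination hl + h2

end Char2

end Cfsg.Agent.H259.SK
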