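import Cfsg.Agent.H259.SK.Main
import Cfsg.Agent.H731.SK.Rows

/-!
# S3010: the row `psu` in the form of helper731's `Rows` (helper259)
-/

set_option autoImplicit false

universe u

namespace Cfsg.Agent.H259.SK

open Cfsg Cfsg.Agent.H282.SK Cfsg.Agent.H731.SK

/-- `Rows.psu` -/
theorem row_psu : DeadS.{u} fun K _ => PsuEven K := by
  rintro G _ _ V K h ⟨F, _, _, _, n, q, hF, hq, hn, h32, h42, he⟩
  exact dead_psu V K h ⟨F, _, _, n, q, hF, hq, hn, h32, h42, he⟩

end Cfsg.Agent.H259.SK
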