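import Cfsg.Agent.ClassicalGeometry.PSUAutMain

/-!
# Torus elements of `SU n F q` on orthonormal families (helper259)

For an orthonormal family `z : ι → F^n` and `γ : ι → F` of norm one and product one there is `y ∈ SU n F q` with
`y u = u + ∑ (γ i - 1) h(u, z i) z i`. Semi-isometries permuting the lines of the family conjugate these elements.
-/

set_option autoImplicit false
set_option linter.unusedSectionVars false
set_option linter.unusedVariables false

namespace Cfsg.Agent.H259.SK

open Matrix Cfsg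
open Cfsg.Agent.LieClassical.HermBasic Cfsg.Agent.LieClassical.HermSiegel

section Basic

variable {F : Type*} [Field F] [Fintype F] {q n : ℕ}

/-- orthonormal families -/
def ON (q : ℕ) {ι : Type*} [DecidableEq ι] (z : ι → (Fin n → F)) : Prop :=
  ∀ i j, hermForm n F q (z i) (z j) = if i = j then 1 else 0

/-- `y` is the torus element with eigenvalues `γ i` on `z i`, and `1` on the orthogonal complement. -/
def IsTor (y : SU n F q) {ι : Type*} [Fintype ι] (z : ι → (Fin n → F)) (γ : ι → F) : Prop :=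
  ∀ u, act y u = u + ∑ i, ((γ i - 1) * hermForm n F q u (z i)) • z i

/-- the matrix -/
def torM (q : ℕ) {ι : Type*} [Fintype ι] (z : ι → (Fin n → F)) (γ : ι → F) : Matrix (Fin n) (Fin n) F :=
  1 + (Matrix.of fun (j : Fin n) (i : ι) => (γ i - 1) * z i j) * (Matrix.of fun (i : ι) (j : Fin n) => z i j ^ q)

theorem torM_mulVec {ι : Type*} [Fintype ι] (z : ι → (Fin n → F)) (γ : ι → F) (u : Fin n → F) :
    torM q z γ *ᵥ u = u + ∑ i, ((γ i - 1) * hermForm n F q u (z i)) • z i := by
  rw [torM, Matrix.add_mulVec, Matrix.one_mulVec, ← Matrix.mulVec_mulVec]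
  congr 1
  funext j
  rw [Matrix.mulVec, dotProduct, Finset.sum_apply]
  refine Finset.sum_congr rfl fun i _ => ?_
  rw [Matrix.mulVec, dotProduct, Pi.smul_apply, smul_eq_mul, herm_def, Matrix.of_apply]
  have : ∑ x, (Matrix.of fun (i : ι) (j : Fin n) => z i j ^ q) i x * u x = ∑ x, u x * z i x ^ q :=
    Finset.sum_congr rfl fun x _ => by rw [Matrix.of_apply]; ring
  rw [this]
  ring

theorem det_torM {ι : Type*} [Fintype ι] [DecidableEq ι] {z : ι → (Fin n → F)} (hz : ON q z) (γ : ι → F) :
    (torM q z γ).det = ∏ i, γ i := by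
  rw [torM, Matrix.det_one_add_mul_comm]
  have : (1 + (Matrix.of fun (i : ι) (j : Fin n) => z i j ^ q) *
      (Matrix.of fun (j : Fin n) (i : ι) => (γ i - 1) * z i j)) = Matrix.diagonal γ := by
    ext i i'
    rw [Matrix.add_apply, Matrix.mul_apply]
    have h1 : ∑ j, (Matrix.of fun (i : ι) (j : Fin n) => z i j ^ q) i j *
        (Matrix.of fun (j : Fin n) (i : ι) => (γ i - 1) * z i j) j i' = (γ i' - 1) * hermForm n F q (z i') (z i) := by
      rw [herm_def, Finset.mul_sum]
      exact Finset.sum_congr rfl fun j _ => by rw [Matrix.of_apply, Matrix.of_apply]; ring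
    rw [h1, hz]
    by_cases h : i = i'
    · subst h
      simp
    · rw [if_neg (Ne.symm h), Matrix.one_apply_ne h, Matrix.diagonal_apply_ne _ h]
      ring
  rw [this, Matrix.det_diagonal]

/-- the form of a combination of an orthonormal family -/
theorem herm_sum_sum (hF : Fintype.card F = q ^ 2) {ι : Type*} [Fintype ι] [DecidableEq ι] {z : ι → (Fin n → F)}
    (hz : ON q z) (a b : ι → F) :
    hermForm n F q (∑ i, a i • z i) (∑ i, b i • z i) = ∑ i, a i * b i ^ q := by
  rw [herm_sum_left]
  refine Finset.sum_congr rfl fun i _ => ?_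
  rw [herm_sum_right hF, Finset.sum_eq_single i]
  · rw [herm_smul_left, herm_smul_right, hz, if_pos rfl]; ring
  · intro j _ hj
    rw [herm_smul_left, herm_smul_right, hz, if_neg (Ne.symm hj)]; ring
  · intro h; exact absurd (Finset.mem_univ _) h

theorem herm_sum_z {ι : Type*} [Fintype ι] [DecidableEq ι] {z : ι → (Fin n → F)}
    (hz : ON q z) (a : ι → F) (j : ι) : hermForm n F q (∑ i, a i • z i) (z j) = a j := by
  rw [herm_sum_left, Finset.sum_eq_single j]
  · rw [herm_smul_left, hz, if_pos rfl, mul_one]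
  · intro i _ hi
    rw [herm_smul_left, hz, if_neg hi, mul_zero]
  · intro h; exact absurd (Finset.mem_univ _) h

theorem torM_herm (hF : Fintype.card F = q ^ 2) {ι : Type*} [Fintype ι] [DecidableEq ι] {z : ι → (Fin n → F)}
    (hz : ON q z) {γ : ι → F} (hγ : ∀ i, γ i * γ i ^ q = 1) (u v : Fin n → F) :
    hermForm n F q (torM q z γ *ᵥ u) (torM q z γ *ᵥ v) = hermForm n F q u v := by
  rw [torM_mulVec, torM_mulVec, herm_add_left, herm_add_right hF, herm_add_right hF, herm_sum_sum hF hz,
    herm_sum_left, herm_sum_right hF, add_assoc, ← Finset.sum_add_distrib, ← Finset.sum_add_distrib,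
    Finset.sum_eq_zero, add_zero]
  intro i _
  rw [herm_smul_left, herm_smul_right, herm_swap hF v (z i), mul_pow, sub_pow_q hF, one_pow]
  linear_combination (hermForm n F q u (z i) * hermForm n F q v (z i) ^ q) * hγ i

theorem exists_tor (hF : Fintype.card F = q ^ 2) {ι : Type*} [Fintype ι] [DecidableEq ι] {z : ι → (Fin n → F)}
    (hz : ON q z) {γ : ι → F} (hγ : ∀ i, γ i * γ i ^ q = 1) (hp : ∏ i, γ i = 1) :
    ∃ y : SU n F q, IsTor y z γ :=
  ⟨mkSU (torM q z γ) (by rw [det_torM hz, hp]) (torM_herm hF hz hγ), fun u => torM_mulVec z γ u⟩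

namespace IsTor

variable {ι : Type*} [Fintype ι] {z : ι → (Fin n → F)} {γ γ' : ι → F} {y y' : SU n F q}

theorem apply [DecidableEq ι] (h : IsTor y z γ) (hz : ON q z) (i : ι) : act y (z i) = γ i • z i := by
  rw [h, Finset.sum_eq_single i]
  · rw [hz, if_pos rfl, mul_one, sub_smul, one_smul]; abel
  · intro j _ hj
    rw [hz, if_neg (Ne.symm hj), mul_zero, zero_smul]
  · intro h; exact absurd (Finset.mem_univ _) h

theorem orth (h : IsTor y z γ) {u : Fin n → F} (hu : ∀ i, hermForm n F q u (z i) = 0) : act y u = u := by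
  rw [h, Finset.sum_eq_zero, add_zero]
  intro i _
  rw [hu, mul_zero, zero_smul]

theorem unique (h : IsTor y z γ) (h' : IsTor y' z γ) : y = y' := by
  apply ext_act
  intro u
  rw [h, h']

theorem mul [DecidableEq ι] (h : IsTor y z γ) (h' : IsTor y' z γ') (hz : ON q z) : IsTor (y * y') z (γ * γ') := by
  intro u
  rw [act_mul, h, h', add_assoc, ← Finset.sum_add_distrib]
  congr 1
  refine Finset.sum_congr rfl fun i _ => ?_
  rw [herm_add_left, herm_sum_z hz, ← add_smul, Pi.mul_apply]
  congr 1
  ring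

theorem comm [DecidableEq ι] (h : IsTor y z γ) (h' : IsTor y' z γ') (hz : ON q z) : y * y' = y' * y := by
  apply (h.mul h' hz).unique
  rw [mul_comm]
  exact h'.mul h hz

theorem one : IsTor (1 : SU n F q) z (1 : ι → F) := by
  intro u
  rw [act_one, Finset.sum_eq_zero, add_zero]
  intro i _
  rw [Pi.one_apply, sub_self, zero_mul, zero_smul]

theorem pow [DecidableEq ι] (h : IsTor y z γ) (hz : ON q z) (m : ℕ) : IsTor (y ^ m) z (γ ^ m) := by
  induction m with
  | zero => rw [pow_zero, pow_zero]; exact one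
  | succ m ih => rw [pow_succ, pow_succ]; exact ih.mul h hz

theorem pow_eq_one [DecidableEq ι] (h : IsTor y z γ) (hz : ON q z) {m : ℕ} (hm : ∀ i, γ i ^ m = 1) : y ^ m = 1 := by
  have h1 := h.pow hz m
  have h2 : γ ^ m = 1 := funext fun i => by rw [Pi.pow_apply, hm, Pi.one_apply]
  rw [h2] at h1
  exact h1.unique one

theorem inv [DecidableEq ι] (hF : Fintype.card F = q ^ 2) (h : IsTor y z γ) (hz : ON q z)
    (hγ : ∀ i, γ i * γ i ^ q = 1) : IsTor y⁻¹ z (fun i => γ i ^ q) := by
  have h1 : y ^ (q + 1) = 1 := h.pow_eq_one hz fun i => by rw [pow_succ']; exact hγ i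
  have h2 : y⁻¹ = y ^ q := by
    rw [inv_eq_iff_mul_eq_one, ← pow_succ', h1]
  rw [h2]
  exact h.pow hz q

end IsTor

/-- semi-isometries -/
structure Semi (q : ℕ) (ρ : F ≃+* F) (S : (Fin n → F) → (Fin n → F)) : Prop where
  add : ∀ u v, S (u + v) = S u + S v
  smul : ∀ (a : F) v, S (a • v) = ρ a • S v
  herm : ∀ u v, hermForm n F q (S u) (S v) = ρ (hermForm n F q u v)

namespace Semi

variable {ρ : F ≃+* F} {S : (Fin n → F) → (Fin n → F)}

theorem zero (h : Semi q ρ S) : S 0 = 0 := by
  have h1 := h.smul 0 0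
  rwa [zero_smul, map_zero, zero_smul] at h1

theorem sum (h : Semi q ρ S) {ι : Type*} (s : Finset ι) (f : ι → (Fin n → F)) :
    S (∑ i ∈ s, f i) = ∑ i ∈ s, S (f i) := by
  classical
  induction s using Finset.induction_on with
  | empty => rw [Finset.sum_empty, Finset.sum_empty, h.zero]
  | insert a s ha ih => rw [Finset.sum_insert ha, Finset.sum_insert ha, h.add, ih]

theorem of_act (g : SU n F q) : Semi q (1 : F ≃+* F) (act g) :=
  ⟨act_add g, fun a v => act_smul g a v, fun u v => herm_act g u v⟩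

theorem comp {ρ' : F ≃+* F} {S' : (Fin n → F) → (Fin n → F)} (h : Semi q ρ S) (h' : Semi q ρ' S') :
    Semi q (ρ * ρ') (fun v => S (S' v)) :=
  ⟨fun u v => by rw [h'.add, h.add], fun a v => by rw [h'.smul, h.smul]; rfl,
    fun u v => by rw [h.herm, h'.herm]; rfl⟩

/-- A semi-isometry permuting the lines of an orthonormal family conjugates the torus elements. -/
theorem conj_tor (h : Semi q ρ S) {ι : Type*} [Fintype ι] {z z' : ι → (Fin n → F)} {γ γ' : ι → F} {y y' : SU n F q}
    (hy : IsTor y z γ) (hy' : IsTor y' z' γ') (π : Equiv.Perm ι)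
    (hz : ∀ i, ∃ c : F, c * c ^ q = 1 ∧ S (z i) = c • z' (π i)) (hγ : ∀ i, ρ (γ i) = γ' (π i)) (u : Fin n → F) :
    S (act y u) = act y' (S u) := by
  rw [hy, hy', h.add, h.sum]
  congr 1
  rw [← Equiv.sum_comp π (fun i => ((γ' i - 1) * hermForm n F q (S u) (z' i)) • z' i)]
  refine Finset.sum_congr rfl fun i _ => ?_
  obtain ⟨c, hc, hi⟩ := hz i
  rw [h.smul, map_mul, ← h.herm, hi, herm_smul_right, smul_smul, map_sub, map_one, hγ]
  congr 1
  linear_combination ((γ' (π i) - 1) * hermForm n F q (S u) (z' (π i))) * hc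

end Semi

/-- an element with eigenvectors `z i` commutes with the torus elements -/
theorem comm_of_eigen {ι : Type*} [Fintype ι] {z : ι → (Fin n → F)} {γ : ι → F} {y x : SU n F q}
    (hy : IsTor y z γ) (hx : ∀ i, ∃ c : F, c * c ^ q = 1 ∧ act x (z i) = c • z i) : x * y = y * x := by
  apply ext_act
  intro u
  rw [act_mul, act_mul]
  exact (Semi.of_act x).conj_tor hy hy (Equiv.refl ι) hx (fun i => rfl) u

/-- an element permuting the lines of the family, preserving `γ`, commutes -/
theorem comm_of_perm {ι : Type*} [Fintype ι] {z : ι → (Fin n → F)} {γ : ι → F} {y x : SU n F q}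
    (hy : IsTor y z γ) (π : Equiv.Perm ι) (hx : ∀ i, ∃ c : F, c * c ^ q = 1 ∧ act x (z i) = c • z (π i))
    (hγ : ∀ i, γ i = γ (π i)) : x * y = y * x := by
  apply ext_act
  intro u
  rw [act_mul, act_mul]
  exact (Semi.of_act x).conj_tor hy hy π hx hγ u

/-- an element permuting the lines of the family, inverting `γ`, inverts -/
theorem inv_of_perm (hF : Fintype.card F = q ^ 2) {ι : Type*} [Fintype ι] [DecidableEq ι] {z : ι → (Fin n → F)}
    {γ : ι → F} {y x : SU n F q} (hz : ON q z) (hn : ∀ i, γ i * γ i ^ q = 1)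
    (hy : IsTor y z γ) (π : Equiv.Perm ι) (hx : ∀ i, ∃ c : F, c * c ^ q = 1 ∧ act x (z i) = c • z (π i))
    (hγ : ∀ i, γ i = γ (π i) ^ q) : x * y = y⁻¹ * x := by
  apply ext_act
  intro u
  rw [act_mul, act_mul]
  exact (Semi.of_act x).conj_tor hy (hy.inv hF hz hn) π hx hγ u

/-! ### orthonormal families -/

theorem ON.linInd {ι : Type*} [Fintype ι] [DecidableEq ι] {z : ι → (Fin n → F)} (hz : ON q z) :
    LinearIndependent F z := by
  rw [Fintype.linearIndependent_iff]
  intro g hg i
  have h1 := herm_sum_z hz g i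
  rw [hg, herm_zero_left] at h1
  exact h1.symm

theorem ON.card_le {ι : Type*} [Fintype ι] [DecidableEq ι] {z : ι → (Fin n → F)} (hz : ON q z) :
    Fintype.card ι ≤ n := by
  have := hz.linInd.fintype_card_le_finrank
  rwa [Module.finrank_fintype_fun_eq_card, Fintype.card_fin] at this

/-- a family shorter than `n` has a nonzero orthogonal vector -/
theorem exists_orth (hF : Fintype.card F = q ^ 2) {ι : Type*} [Fintype ι] (z : ι → (Fin n → F))
    (hc : Fintype.card ι < n) : ∃ u : Fin n → F, u ≠ 0 ∧ ∀ i, hermForm n F q u (z i) = 0 := by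
  let L : (Fin n → F) →ₗ[F] (ι → F) :=
    { toFun := fun u i => hermForm n F q u (z i)
      map_add' := fun u v => funext fun i => herm_add_left u v (z i)
      map_smul' := fun c u => funext fun i => herm_smul_left c u (z i) }
  have h1 : L.ker ≠ ⊥ := by
    apply LinearMap.ker_ne_bot_of_finrank_lt
    rw [Module.finrank_fintype_fun_eq_card, Module.finrank_fintype_fun_eq_card, Fintype.card_fin]
    exact hc
  obtain ⟨u, hu, hu0⟩ := (Submodule.ne_bot_iff _).1 h1
  exact ⟨u, hu0, fun i => congrFun (LinearMap.mem_ker.1 hu) i⟩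

/-- eigenvectors of an isometry for different eigenvalues of norm one are orthogonal -/
theorem orth_of_eigen (hF : Fintype.card F = q ^ 2) {x : SU n F q} {a b : Fin n → F} {s t : F} (ht : t * t ^ q = 1)
    (hst : s ≠ t) (ha : act x a = s • a) (hb : act x b = t • b) : hermForm n F q a b = 0 := by
  have h1 := herm_act x a b
  rw [ha, hb, herm_smul_left, herm_smul_right] at h1
  have h2 : (s - t) * hermForm n F q a b = 0 := by
    linear_combination t * h1 - (s * hermForm n F q a b) * ht
  rcases mul_eq_zero.1 h2 with h3 | h3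
  · exact absurd (sub_eq_zero.1 h3) hst
  · exact h3

end Basic

end Cfsg.Agent.H259.SK
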